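import Mathlib

set_option autoImplicit false

namespace Cfsg.Agent.Lib.Helper63.Alt2P

open Equiv Equiv.Perm MulAction

theorem aidx_smul_one {S : Type*} [Group S] (H : Subgroup S) (h : H) :
    h • (((1 : S) : S ⧸ H)) = ((1 : S) : S ⧸ H) := by
  have h1 : h • (((1 : S) : S ⧸ H)) = (((h : S) * 1 : S) : S ⧸ H) := rfl
  rw [h1, QuotientGroup.eq]
  simp

/-- the cosets other than `H`, as an `H`-set. -/
def aidxY {S : Type*} [Group S] (H : Subgroup S) : SubMulAction H (S ⧸ H) where
  carrier := {x | x ≠ ((1 : S) : S ⧸ H)}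
  smul_mem' := by
    intro h x hx hcon
    apply hx
    exact smul_left_cancel h (hcon.trans (aidx_smul_one H h).symm)

theorem aidx_inj {S : Type*} [Group S] [IsSimpleGroup S] (H : Subgroup S) (hH : H ≠ ⊤) :
    Function.Injective (MulAction.toPermHom H (aidxY H)) := by
  rw [injective_iff_map_eq_one]
  intro h hh
  have h1 : ∀ x : S ⧸ H, (h : S) • x = x := by
    intro x
    by_cases hx : x = ((1 : S) : S ⧸ H)
    · rw [hx]; exact aidx_smul_one H h
    · have h2 := congrArg (fun f : Perm (aidxY H) => ((f ⟨x, hx⟩ : aidxY H) : S ⧸ H)) hh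
      have h3 : h • x = x := by simpa using h2
      exact h3
  have h2 : (h : S) ∈ H.normalCore := by
    rw [Subgroup.normalCore_eq_ker, MonoidHom.mem_ker]
    ext x
    simpa using h1 x
  have h3 : H.normalCore = ⊥ := by
    rcases (H.normalCore_normal).eq_bot_or_eq_top with h | h
    · exact h
    · exact absurd (top_le_iff.1 (h ▸ H.normalCore_le)) hH
  rw [h3, Subgroup.mem_bot] at h2
  exact Subtype.ext h2

theorem aidx_card {S : Type*} [Group S] [Finite S] (H : Subgroup S) :
    Nat.card (aidxY H) = H.index - 1 := by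
  classical
  haveI := Fintype.ofFinite (S ⧸ H)
  have h1 : Nat.card (aidxY H) = Nat.card {x : S ⧸ H | x ≠ ((1 : S) : S ⧸ H)} := rfl
  rw [h1, Nat.card_eq_fintype_card, Set.card_ne_eq, ← Nat.card_eq_fintype_card]
  rfl

theorem alt_index {α : Type*} [Fintype α] [DecidableEq α] (hα : 5 ≤ Fintype.card α)
    (H : Subgroup (alternatingGroup α)) (hH : H.index = Fintype.card α) :
    Nonempty (H ≃* alternatingGroup (Fin (Fintype.card α - 1))) := by
  classical
  haveI : IsSimpleGroup (alternatingGroup α) :=
    alternatingGroup.isSimpleGroup (by rw [Nat.card_eq_fintype_card]; exact hα)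
  haveI : Nontrivial α := Fintype.one_lt_card_iff_nontrivial.1 (by omega)
  have hHtop : H ≠ ⊤ := by
    intro h
    rw [h, Subgroup.index_top] at hH
    omega
  have hinj := aidx_inj H hHtop
  haveI : Fintype (aidxY H) := Fintype.ofFinite _
  set n := Fintype.card α with hn
  have hY : Nat.card (aidxY H) = n - 1 := by rw [aidx_card, hH]
  set K := (MulAction.toPermHom H (aidxY H)).range with hK
  have hKc : Nat.card K = Nat.card H :=
    (Nat.card_congr (MonoidHom.ofInjective hinj).toEquiv).symm
  have h1 : K.index * Nat.card K = (n - 1).factorial := by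
    rw [Subgroup.index_mul_card, Nat.card_perm, hY]
  have h2 : Nat.card H * n = Nat.card (alternatingGroup α) := by
    rw [← hH, Subgroup.card_mul_index]
  have h3 : 2 * Nat.card (alternatingGroup α) = n.factorial := by
    rw [two_mul_nat_card_alternatingGroup, Nat.card_perm, Nat.card_eq_fintype_card]
  have h4 : n.factorial = n * (n - 1).factorial := by
    obtain ⟨k, hk⟩ : ∃ k, n = k + 1 := ⟨n - 1, by omega⟩
    rw [hk, Nat.factorial_succ]; simp
  have hHpos : 0 < Nat.card H := Nat.card_pos
  have h5 : K.index = 2 := by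
    have h6 : n * (K.index * Nat.card H) = n * (2 * Nat.card H) := by
      rw [← hKc, h1, ← h4, ← h3, ← h2, hKc]; ring
    have h7 := Nat.eq_of_mul_eq_mul_left (by omega) h6
    exact Nat.eq_of_mul_eq_mul_right hHpos h7
  have h6 : K = alternatingGroup (aidxY H) := eq_alternatingGroup_of_index_eq_two h5
  have e : (aidxY H) ≃ Fin (n - 1) := Finite.equivFinOfCardEq hY
  exact ⟨((MonoidHom.ofInjective hinj).trans (MulEquiv.subgroupCongr h6)).trans
    (Equiv.altCongrHom e)⟩

end Cfsg.Agent.Lib.Helper63.Alt2P
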