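import Mathlib

set_option autoImplicit false

namespace Cfsg.Agent.Lib.Helper63.Alt2P

open Nat

theorem ba_small (n : ℕ) (n_pos : 0 < n) :
    ∏ p ∈ Finset.range (2 * n / 3 + 1), p ^ (centralBinom n).factorization p ≤
      (2 * n) ^ sqrt (2 * n) * 4 ^ (2 * n / 3) := by
  have n2_pos : 1 ≤ 2 * n := mul_pos (zero_lt_two' ℕ) n_pos
  let S := {p ∈ Finset.range (2 * n / 3 + 1) | Nat.Prime p}
  let f x := x ^ n.centralBinom.factorization x
  have : ∏ x ∈ S, f x = ∏ x ∈ Finset.range (2 * n / 3 + 1), f x := by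
    refine Finset.prod_filter_of_ne fun p _ h => ?_
    contrapose h; dsimp only [f]
    rw [factorization_eq_zero_of_not_prime n.centralBinom h, _root_.pow_zero]
  change ∏ x ∈ Finset.range (2 * n / 3 + 1), f x ≤ _
  rw [← this, ← Finset.prod_filter_mul_prod_filter_not S (· ≤ sqrt (2 * n))]
  apply mul_le_mul'
  · refine (Finset.prod_le_prod' fun p _ => (?_ : f p ≤ 2 * n)).trans ?_
    · exact pow_factorization_choose_le (mul_pos two_pos n_pos)
    have : (Finset.Icc 1 (sqrt (2 * n))).card = sqrt (2 * n) := by rw [card_Icc, Nat.add_sub_cancel]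
    rw [Finset.prod_const]
    refine pow_right_mono₀ n2_pos ((Finset.card_le_card fun x hx => ?_).trans this.le)
    obtain ⟨h1, h2⟩ := Finset.mem_filter.1 hx
    exact Finset.mem_Icc.mpr ⟨(Finset.mem_filter.1 h1).2.one_lt.le, h2⟩
  · refine le_trans ?_ (primorial_le_four_pow (2 * n / 3))
    refine (Finset.prod_le_prod' fun p hp => (?_ : f p ≤ p)).trans ?_
    · obtain ⟨h1, h2⟩ := Finset.mem_filter.1 hp
      refine (pow_right_mono₀ (Finset.mem_filter.1 h1).2.one_lt.le ?_).trans (pow_one p).le
      exact Nat.factorization_choose_le_one (sqrt_lt'.mp <| not_le.1 h2)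
    refine Finset.prod_le_prod_of_subset_of_one_le' (Finset.filter_subset _ _) ?_
    exact fun p hp _ => (Finset.mem_filter.1 hp).2.one_lt.le

theorem centralBinom_le_of_few_primes (n : ℕ) (n_large : 2 < n)
    (few : ((Finset.Ioc n (2 * n)).filter Nat.Prime).card ≤ 2) :
    Nat.centralBinom n ≤ (2 * n) ^ Nat.sqrt (2 * n) * 4 ^ (2 * n / 3) * (2 * n) ^ 2 := by
  have n_pos : 0 < n := (Nat.zero_le _).trans_lt n_large
  have n2_pos : 1 ≤ 2 * n := mul_pos (zero_lt_two' ℕ) n_pos
  let f x := x ^ n.centralBinom.factorization x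
  have hsub : Finset.range (2 * n / 3 + 1) ⊆ Finset.range (2 * n + 1) := by
    intro x hx
    rw [Finset.mem_range] at hx ⊢
    have : 2 * n / 3 ≤ 2 * n := Nat.div_le_self _ _
    omega
  have h1 : centralBinom n = (∏ x ∈ Finset.range (2 * n + 1) \ Finset.range (2 * n / 3 + 1), f x) *
      ∏ x ∈ Finset.range (2 * n / 3 + 1), f x := by
    rw [Finset.prod_sdiff hsub]
    exact n.prod_pow_factorization_centralBinom.symm
  have h2 : ∏ x ∈ (Finset.Ioc n (2 * n)).filter Nat.Prime, f x =
      ∏ x ∈ Finset.range (2 * n + 1) \ Finset.range (2 * n / 3 + 1), f x := by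
    apply Finset.prod_subset
    · intro x hx
      rw [Finset.mem_filter, Finset.mem_Ioc] at hx
      rw [Finset.mem_sdiff, Finset.mem_range, Finset.mem_range]
      have : 2 * n / 3 ≤ n := by omega
      omega
    · intro x hx hx'
      rw [Finset.mem_sdiff, Finset.mem_range, Finset.mem_range] at hx
      rw [Finset.mem_filter, Finset.mem_Ioc] at hx'
      dsimp only [f]
      by_cases hp : x.Prime
      · have hxn : x ≤ n := by
          by_contra hcon
          exact hx' ⟨⟨by omega, by omega⟩, hp⟩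
        have h2x : 2 * n < 3 * x := by omega
        rw [factorization_centralBinom_of_two_mul_self_lt_three_mul n_large hxn h2x, Nat.pow_zero]
      · rw [factorization_eq_zero_of_not_prime n.centralBinom hp, Nat.pow_zero]
  have h3 : ∏ x ∈ (Finset.Ioc n (2 * n)).filter Nat.Prime, f x ≤ (2 * n) ^ 2 := by
    refine (Finset.prod_le_prod' fun p _ => (?_ : f p ≤ 2 * n)).trans ?_
    · exact pow_factorization_choose_le (mul_pos two_pos n_pos)
    rw [Finset.prod_const]
    exact pow_right_mono₀ n2_pos few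
  rw [h1, ← h2, mul_comm]
  exact Nat.mul_le_mul (ba_small n n_pos) h3

end Cfsg.Agent.Lib.Helper63.Alt2P
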