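import Mathlib
import Cfsg.Agent.S0675
import Cfsg.Agent.Lib.Helper63.Deg7

set_option autoImplicit false

namespace Cfsg.Agent.Lib.Helper63.Alt2P

open Equiv Equiv.Perm MulAction

theorem burnside_abs {H B : Type*} [Group H] [Finite H] [MulAction H B] [FaithfulSMul H B]
    [Finite B] [IsPretransitive H B] (hp : (Nat.card B).Prime) :
    IsMultiplyPretransitive H B 2 ∨
      (∃ s, s ∣ Nat.card B - 1 ∧ Nat.card H = Nat.card B * s ∧
        ∀ u : H, orderOf u = Nat.card B → (Subgroup.zpowers u).Normal) := by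
  classical
  have : Fintype B := Fintype.ofFinite B
  set p := Nat.card B with hpdef
  have : Fact p.Prime := ⟨hp⟩
  have hα : Fintype.card B = p := by rw [hpdef, Nat.card_eq_fintype_card]
  set φ : H →* Perm B := MulAction.toPermHom H B with hφ
  have hinj : Function.Injective φ := MulAction.toPerm_injective
  set G : Subgroup (Perm B) := φ.range with hG
  set ψ : H →* G := φ.rangeRestrict with hψ
  have hψinj : Function.Injective ψ := by
    rw [hψ, MonoidHom.rangeRestrict_injective_iff]; exact hinj
  have hψsurj : Function.Surjective ψ := φ.rangeRestrict_surjective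
  have hact : ∀ (h : H) (x : B), ψ h • x = h • x := fun h x => rfl
  have : IsPretransitive G B := by
    refine ⟨fun x y => ?_⟩
    obtain ⟨h, hh⟩ := exists_smul_eq H x y
    exact ⟨ψ h, by rw [hact, hh]⟩
  have hcardHG : Nat.card H = Nat.card G :=
    Nat.card_congr (Equiv.ofBijective ψ ⟨hψinj, hψsurj⟩)
  rcases Cfsg.Agent.S0675.result (by rw [hα]; exact hp) G with hsol | h2
  · right
    have hGne : (⊤ : Subgroup G) ≠ ⊥ := by
      intro htb
      have hsub : Subsingleton G := by
        refine ⟨fun a b => ?_⟩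
        have ha : a ∈ (⊤ : Subgroup G) := Subgroup.mem_top a
        have hb : b ∈ (⊤ : Subgroup G) := Subgroup.mem_top b
        rw [htb, Subgroup.mem_bot] at ha hb
        rw [ha, hb]
      have hntB : Nontrivial B := Fintype.one_lt_card_iff_nontrivial.mp (by rw [hα]; exact hp.one_lt)
      obtain ⟨x, y, hxy⟩ := exists_pair_ne B
      obtain ⟨g, hg⟩ := exists_smul_eq G x y
      rw [Subsingleton.elim g 1, one_smul] at hg
      exact hxy hg
    have hsolT : Group.IsSolvable (⊤ : Subgroup G) :=
      Group.isSolvable_of_isSolvable_injective (f := (⊤ : Subgroup G).subtype) (Subgroup.subtype_injective _)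
    obtain ⟨A, hAn, hA0, hAab⟩ :=
      Cfsg.Agent.Lib.Helper63.exists_abelian_normal_of_solvable_normal (⊤ : Subgroup G) hGne hsolT
    obtain ⟨P⟩ : Nonempty (Sylow p G) := inferInstance
    have hPn := Cfsg.Agent.Lib.Helper63.sylow_normal_of_abelian_normal hα G A hAn hA0 hAab P
    obtain ⟨d, hd, hcard⟩ := Cfsg.Agent.Lib.Helper63.card_normalizer_sylow hα G P
    have hPcard := Cfsg.Agent.Lib.Helper63.card_sylow_eq hα G P
    rw [Subgroup.normalizer_eq_top_iff.mpr hPn, Subgroup.card_top] at hcard
    refine ⟨d, hd, by rw [hcardHG, hcard], ?_⟩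
    intro u hu
    have hou : orderOf (ψ u) = p := by rw [orderOf_injective ψ hψinj, hu]
    have hQcard : Nat.card (Subgroup.zpowers (ψ u)) = p := by rw [Nat.card_zpowers, hou]
    have hQp : IsPGroup p (Subgroup.zpowers (ψ u)) :=
      IsPGroup.of_card (n := 1) (by rw [hQcard, pow_one])
    obtain ⟨P', hP'⟩ := hQp.exists_le_sylow
    have hP'card := Cfsg.Agent.Lib.Helper63.card_sylow_eq hα G P'
    have hP'eq : Subgroup.zpowers (ψ u) = (P' : Subgroup G) :=
      Subgroup.eq_of_le_of_card_ge hP' (by rw [hP'card, hQcard])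
    have := Sylow.unique_of_normal P hPn
    have hQn : (Subgroup.zpowers (ψ u)).Normal := by
      rw [hP'eq, Subsingleton.elim P' P]; exact hPn
    have hcomap : Subgroup.zpowers u = (Subgroup.zpowers (ψ u)).comap ψ := by
      rw [← MonoidHom.map_zpowers, Subgroup.comap_map_eq_self_of_injective hψinj]
    rw [hcomap]
    exact hQn.comap ψ
  · left
    refine ⟨fun e1 e2 => ?_⟩
    obtain ⟨g, hg⟩ := h2.exists_smul_eq e1 e2
    obtain ⟨h, rfl⟩ := hψsurj g
    refine ⟨h, ?_⟩
    rw [← hg]
    rfl

end Cfsg.Agent.Lib.Helper63.Alt2P
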