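import Mathlib

set_option autoImplicit false

namespace Cfsg.Agent.Lib.Helper63.Alt2P

open Real

theorem bb_real {x : ℝ} (x_large : (2048 : ℝ) ≤ x) :
    x * ((2 * x) ^ √(2 * x) * 4 ^ (2 * x / 3) * (2 * x) ^ (2 : ℕ)) ≤ 4 ^ x := by
  let f : ℝ → ℝ := fun x =>
    log x + log x + log x + √(2 * x) * log (2 * x) + 2 * log 2 - log 4 / 3 * x
  have h5 : 0 < x := lt_of_lt_of_le (by norm_num1) x_large
  have hlog : ConcaveOn ℝ (Set.Ioi (0.5 : ℝ)) log :=
    strictConcaveOn_log_Ioi.concaveOn.subset (Set.Ioi_subset_Ioi (by norm_num)) (convex_Ioi 0.5)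
  have h : ConcaveOn ℝ (Set.Ioi 0.5) f := by
    apply ConcaveOn.sub
    · apply ConcaveOn.add
      · apply ConcaveOn.add
        · exact (hlog.add hlog).add hlog
        convert!
          ((strictConcaveOn_sqrt_mul_log_Ioi.concaveOn.comp_linearMap ((2 : ℝ) • LinearMap.id)))
          using 1
        ext x
        simp only [Set.mem_Ioi, Set.mem_preimage, LinearMap.smul_apply,
          LinearMap.id_coe, id_eq, smul_eq_mul]
        rw [← mul_lt_mul_iff_right₀ (two_pos)]
        norm_num1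
        rfl
      · exact concaveOn_const _ (convex_Ioi (0.5 : ℝ))
    apply ConvexOn.smul
    · refine div_nonneg (log_nonneg (by norm_num1)) (by norm_num1)
    · exact convexOn_id (convex_Ioi (0.5 : ℝ))
  have hL : 0 < log 2 := log_pos (by norm_num)
  have hl4 : log 4 = 2 * log 2 := by
    rw [show (4 : ℝ) = 2 ^ 2 by norm_num, log_pow]; norm_num
  have key : f x ≤ 0 := by
    suffices ∃ x1 x2, 0.5 < x1 ∧ x1 < x2 ∧ x2 ≤ x ∧ 0 ≤ f x1 ∧ f x2 ≤ 0 by
      obtain ⟨x1, x2, h1, h2, h0, h3, h4⟩ := this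
      exact (h.right_le_of_le_left'' h1 ((h1.trans h2).trans_le h0) h2 h0 (h4.trans h3)).trans h4
    refine ⟨18, 2048, by norm_num1, by norm_num1, x_large, ?_, ?_⟩
    · have h6 : √(2 * 18 : ℝ) = 6 :=
        (sqrt_eq_iff_mul_self_eq_of_pos (by norm_num1)).mpr (by norm_num1)
      have h18 : 0 ≤ log 18 := log_nonneg (by norm_num)
      have h36 : log 4 ≤ log (2 * 18) := log_le_log (by norm_num) (by norm_num)
      dsimp only [f]
      rw [h6]
      generalize log (2 * 18) = a at *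
      generalize log 18 = b at *
      generalize log 4 = c at *
      linarith
    · have h6 : √(2 * 2048 : ℝ) = 64 :=
        (sqrt_eq_iff_mul_self_eq_of_pos (by norm_num1)).mpr (by norm_num1)
      have e1 : log 2048 = 11 * log 2 := by
        rw [show (2048 : ℝ) = 2 ^ 11 by norm_num, log_pow]; norm_num
      have e2 : log (2 * 2048) = 12 * log 2 := by
        rw [show (2 * 2048 : ℝ) = 2 ^ 12 by norm_num, log_pow]; norm_num
      dsimp only [f]
      rw [h6, e1, e2, hl4]
      generalize log 2 = c at *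
      linarith
  have h2x : 0 < 2 * x := by positivity
  have hA : log (x * ((2 * x) ^ √(2 * x) * (2 * x) ^ (2 : ℕ))) =
      log x + log x + log x + √(2 * x) * log (2 * x) + 2 * log 2 := by
    rw [log_mul h5.ne' (by positivity), log_mul (by positivity) (by positivity), log_rpow h2x,
      log_pow, log_mul (by norm_num) h5.ne']
    push_cast
    ring
  have hB : x * ((2 * x) ^ √(2 * x) * (2 * x) ^ (2 : ℕ)) ≤ 4 ^ (x / 3) := by
    rw [← Real.log_le_log_iff (by positivity) (by positivity), hA, log_rpow four_pos]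
    dsimp only [f] at key
    linarith
  have hC : (4 : ℝ) ^ x = 4 ^ (x / 3) * 4 ^ (2 * x / 3) := by
    rw [← rpow_add four_pos]
    congr 1
    ring
  rw [hC]
  calc x * ((2 * x) ^ √(2 * x) * 4 ^ (2 * x / 3) * (2 * x) ^ (2 : ℕ))
      = (x * ((2 * x) ^ √(2 * x) * (2 * x) ^ (2 : ℕ))) * 4 ^ (2 * x / 3) := by ring
    _ ≤ 4 ^ (x / 3) * 4 ^ (2 * x / 3) := by gcongr

theorem main_ineq {n : ℕ} (n_large : 2048 ≤ n) :
    n * ((2 * n) ^ Nat.sqrt (2 * n) * 4 ^ (2 * n / 3) * (2 * n) ^ 2) ≤ 4 ^ n := by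
  rw [← @Nat.cast_le ℝ]
  simp only [Nat.cast_mul, Nat.cast_pow, ← Real.rpow_natCast, Nat.cast_ofNat]
  have h := bb_real (x := (n : ℝ)) (by exact_mod_cast n_large)
  simp only [← Real.rpow_natCast, Nat.cast_ofNat] at h
  refine _root_.trans ?_ h
  gcongr
  · have n2_pos : 0 < 2 * n := by positivity
    exact mod_cast n2_pos
  · exact_mod_cast Real.nat_sqrt_le_real_sqrt
  · norm_num1
  · exact Nat.cast_div_le.trans (by norm_cast)

end Cfsg.Agent.Lib.Helper63.Alt2P
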