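import Cfsg.Agent.Lib.Helper63.Alt2P.BA
import Cfsg.Agent.Lib.Helper63.Alt2P.BB

set_option autoImplicit false

namespace Cfsg.Agent.Lib.Helper63.Alt2P

theorem large_pairs (n : ℕ) (hn : 2048 ≤ n) :
    ∃ p q : ℕ, p.Prime ∧ q.Prime ∧ n < p ∧ p + 4 ≤ q ∧ q ≤ 2 * n := by
  have h3 : 2 < ((Finset.Ioc n (2 * n)).filter Nat.Prime).card := by
    by_contra hcon
    have few : ((Finset.Ioc n (2 * n)).filter Nat.Prime).card ≤ 2 := by omega
    have h1 : 4 ^ n < n * n.centralBinom :=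
      Nat.four_pow_lt_mul_centralBinom n (le_trans (by norm_num1) hn)
    have h2 := centralBinom_le_of_few_primes n (by omega) few
    have h4 := main_ineq hn
    have h5 : n * n.centralBinom ≤
        n * ((2 * n) ^ Nat.sqrt (2 * n) * 4 ^ (2 * n / 3) * (2 * n) ^ 2) :=
      Nat.mul_le_mul_left n h2
    omega
  obtain ⟨a, ha, b, hb, c, hc, hab, hac, hbc⟩ := Finset.two_lt_card.1 h3
  rw [Finset.mem_filter, Finset.mem_Ioc] at ha hb hc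
  have oa : a % 2 = 1 := ha.2.eq_two_or_odd.resolve_left (by omega)
  have ob : b % 2 = 1 := hb.2.eq_two_or_odd.resolve_left (by omega)
  have oc : c % 2 = 1 := hc.2.eq_two_or_odd.resolve_left (by omega)
  have : a + 4 ≤ b ∨ a + 4 ≤ c ∨ b + 4 ≤ a ∨ b + 4 ≤ c ∨ c + 4 ≤ a ∨ c + 4 ≤ b := by omega
  rcases this with h | h | h | h | h | h
  · exact ⟨a, b, ha.2, hb.2, ha.1.1, h, hb.1.2⟩
  · exact ⟨a, c, ha.2, hc.2, ha.1.1, h, hc.1.2⟩
  · exact ⟨b, a, hb.2, ha.2, hb.1.1, h, ha.1.2⟩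
  · exact ⟨b, c, hb.2, hc.2, hb.1.1, h, hc.1.2⟩
  · exact ⟨c, a, hc.2, ha.2, hc.1.1, h, ha.1.2⟩
  · exact ⟨c, b, hc.2, hb.2, hc.1.1, h, hb.1.2⟩

end Cfsg.Agent.Lib.Helper63.Alt2P
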