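import Mathlib
import Cfsg.Agent.Lib.Helper63.Deg7

set_option autoImplicit false

namespace Cfsg.Agent.Lib.Helper63.Alt2P

open Equiv Equiv.Perm MulAction

theorem count13 {α : Type*} [Fintype α] [DecidableEq α] (hα : Fintype.card α = 13)
    (G : Subgroup (Perm α)) [IsPretransitive G α] (h : Nat.card G = 13 * 12 * 11 * 5) : False := by
  have : Fact (Nat.Prime 13) := ⟨by norm_num⟩
  obtain ⟨P⟩ : Nonempty (Sylow 13 G) := inferInstance
  obtain ⟨d, hd, hN⟩ := Cfsg.Agent.Lib.Helper63.card_normalizer_sylow hα G P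
  have h1 := card_sylow_modEq_one 13 G
  have h2 : Nat.card (Sylow 13 G) = (Subgroup.normalizer ((P : Subgroup G) : Set G)).index :=
    Sylow.card_eq_index_normalizer P
  have h3 := Subgroup.card_mul_index (Subgroup.normalizer ((P : Subgroup G) : Set G))
  rw [← h2, hN, h] at h3
  have hd' : d ∈ Nat.divisors 12 := by
    rw [Nat.mem_divisors]; exact ⟨hd, by norm_num⟩
  have hdiv : Nat.divisors 12 = {1, 2, 3, 4, 6, 12} := by decide
  rw [hdiv] at hd'
  simp only [Finset.mem_insert, Finset.mem_singleton] at hd'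
  unfold Nat.ModEq at h1
  rcases hd' with rfl | rfl | rfl | rfl | rfl | rfl <;> omega

end Cfsg.Agent.Lib.Helper63.Alt2P
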