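import Mathlib

set_option autoImplicit false

namespace Cfsg.Agent.Lib.Helper63.Alt2P

open Equiv Equiv.Perm MulAction

theorem cyc {α : Type*} [Fintype α] [DecidableEq α] {p : ℕ} (hp : p.Prime) (x : Perm α)
    (hx : orderOf x = p) (hα : Fintype.card α ≤ 2 * p) :
    x.cycleType = {p} ∨ (x.cycleType = {p, p} ∧ Fintype.card α = 2 * p) := by
  obtain ⟨n, hn⟩ := cycleType_prime_order (σ := x) (by rw [hx]; exact hp)
  rw [hx] at hn
  have hsum : (n + 1) * p ≤ Fintype.card α := by
    have h1 := x.sum_cycleType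
    rw [hn, Multiset.sum_replicate, smul_eq_mul] at h1
    rw [h1]
    exact Finset.card_le_univ _
  have hp0 := hp.pos
  have hn1 : n + 1 ≤ 2 := by
    by_contra hcon
    have : 3 * p ≤ (n + 1) * p := Nat.mul_le_mul_right p (by omega)
    omega
  have hn2 : n = 0 ∨ n = 1 := by omega
  rcases hn2 with rfl | rfl
  · left
    rw [hn]; rfl
  · right
    refine ⟨by rw [hn]; rfl, ?_⟩
    omega

end Cfsg.Agent.Lib.Helper63.Alt2P
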