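import Mathlib
import Cfsg.Agent.Lib.Helper63.Deg7
import Cfsg.Agent.S0678

set_option autoImplicit false

namespace Cfsg.Agent.Lib.Helper63.Alt2P

open Equiv Equiv.Perm MulAction

theorem deg7 {α : Type*} [Fintype α] [DecidableEq α] (hα : Fintype.card α = 7)
    (G : Subgroup (Perm α)) [IsPretransitive G α] (a : Perm α) (haG : a ∈ G)
    (ha : orderOf a = 5) : alternatingGroup α ≤ G := by
  have : Fact (Nat.Prime 7) := ⟨by norm_num⟩
  have h5 : 5 ∣ Nat.card G := by
    have : orderOf (⟨a, haG⟩ : G) = 5 := by rw [← Subgroup.orderOf_coe]; exact ha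
    rw [← this]; exact orderOf_dvd_natCard _
  by_contra hA
  by_cases hsol : Group.IsSolvable G
  · obtain ⟨P⟩ : Nonempty (Sylow 7 G) := inferInstance
    have htop : (⊤ : Subgroup G) ≠ ⊥ := by
      intro h
      have : Nat.card G = 1 := by
        rw [← Subgroup.card_top, h, Subgroup.card_bot]
      rw [this] at h5
      omega
    have hsolt : Group.IsSolvable (⊤ : Subgroup G) :=
      Group.isSolvable_of_isSolvable_injective (f := (⊤ : Subgroup G).subtype) Subtype.val_injective
    obtain ⟨A, hAn, hA0, hAab⟩ :=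
      Cfsg.Agent.Lib.Helper63.exists_abelian_normal_of_solvable_normal (⊤ : Subgroup G) htop hsolt
    have hPn := Cfsg.Agent.Lib.Helper63.sylow_normal_of_abelian_normal hα G A hAn hA0 hAab P
    obtain ⟨d, hd, hN⟩ := Cfsg.Agent.Lib.Helper63.card_normalizer_sylow hα G P
    rw [Subgroup.normalizer_eq_top, Subgroup.card_top] at hN
    rw [hN] at h5
    have hd' : d ∈ Nat.divisors 6 := by
      rw [Nat.mem_divisors]; exact ⟨hd, by norm_num⟩
    have hdiv : Nat.divisors 6 = {1, 2, 3, 6} := by decide
    rw [hdiv] at hd'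
    simp only [Finset.mem_insert, Finset.mem_singleton] at hd'
    rcases hd' with rfl | rfl | rfl | rfl <;> omega
  · have := (Cfsg.Agent.S0678.result hα G hsol hA).1
    rw [this] at h5
    omega

end Cfsg.Agent.Lib.Helper63.Alt2P
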