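import Cfsg.Agent.Lib.Helper63.Alt2P.BABS

set_option autoImplicit false

/-! Ladder ALT2P (S4150), rung DICH (helper98). -/

namespace Cfsg.Agent.Lib.Helper63.Alt2P

open Equiv Equiv.Perm MulAction

theorem dich {α : Type*} [Fintype α] [DecidableEq α] (G : Subgroup (Perm α)) (x : Perm α)
    (hxG : x ∈ G) (hxc : x.IsCycle) (hp : x.support.card.Prime) :
    IsMultiplyPretransitive (fixingSubgroup G ((x.support : Set α)ᶜ))
        (SubMulAction.ofFixingSubgroup G ((x.support : Set α)ᶜ)) 2 ∨
      ((∀ g ∈ G, (∀ i, x i = i → g i = i) → g * x * g⁻¹ ∈ Subgroup.zpowers x) ∧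
        ∃ s, s ∣ x.support.card - 1 ∧
          Nat.card (fixingSubgroup G ((x.support : Set α)ᶜ)) = x.support.card * s) := by
  have hmemB : ∀ i : α, i ∈ SubMulAction.ofFixingSubgroup G ((x.support : Set α)ᶜ) ↔
      i ∈ x.support := by
    intro i
    simp [SubMulAction.mem_ofFixingSubgroup_iff]
  have hcardB : Nat.card (SubMulAction.ofFixingSubgroup G ((x.support : Set α)ᶜ))
      = x.support.card := by
    rw [Nat.card_congr (Equiv.subtypeEquivRight hmemB), Nat.card_eq_fintype_card,
      Fintype.card_coe]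
  have htr : IsPretransitive (fixingSubgroup G ((x.support : Set α)ᶜ))
      (SubMulAction.ofFixingSubgroup G ((x.support : Set α)ᶜ)) :=
    isPretransitive_of_isCycle_mem hxc hxG
  have hfaith : FaithfulSMul (fixingSubgroup G ((x.support : Set α)ᶜ))
      (SubMulAction.ofFixingSubgroup G ((x.support : Set α)ᶜ)) := by
    refine ⟨fun {h₁ h₂} hh => ?_⟩
    apply Subtype.ext
    apply Subtype.ext
    ext i
    by_cases hi : i ∈ x.support
    · have := congrArg Subtype.val (hh ⟨i, (hmemB i).mpr hi⟩)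
      exact this
    · have h1 := (mem_fixingSubgroup_iff G).mp h₁.2 i (by simpa using hi)
      have h2 := (mem_fixingSubgroup_iff G).mp h₂.2 i (by simpa using hi)
      exact h1.trans h2.symm
  rcases burnside_abs (H := fixingSubgroup G ((x.support : Set α)ᶜ))
      (B := SubMulAction.ofFixingSubgroup G ((x.support : Set α)ᶜ)) (hcardB ▸ hp) with
    h2 | ⟨t, ht1, ht2, ht3⟩
  · left; exact h2
  · right
    rw [hcardB] at ht1 ht2 ht3
    refine ⟨?_, t, ht1, ht2⟩
    intro g hg hfix
    have hxH : (⟨x, hxG⟩ : G) ∈ fixingSubgroup G ((x.support : Set α)ᶜ) := by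
      rw [mem_fixingSubgroup_iff]
      intro i hi
      have : x i = i := by simpa using hi
      exact this
    have hgH : (⟨g, hg⟩ : G) ∈ fixingSubgroup G ((x.support : Set α)ᶜ) := by
      rw [mem_fixingSubgroup_iff]
      intro i hi
      exact hfix i (by simpa using hi)
    have hu : orderOf (⟨⟨x, hxG⟩, hxH⟩ : fixingSubgroup G ((x.support : Set α)ᶜ))
        = x.support.card := by
      rw [← hxc.orderOf, Subgroup.orderOf_mk, Subgroup.orderOf_mk]
    have hn := ht3 _ hu
    have h3 := hn.conj_mem _ (Subgroup.mem_zpowers _) ⟨⟨g, hg⟩, hgH⟩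
    obtain ⟨k, hk⟩ := Subgroup.mem_zpowers_iff.mp h3
    refine Subgroup.mem_zpowers_iff.mpr ⟨k, ?_⟩
    have h4 := congrArg (fun z : fixingSubgroup G ((x.support : Set α)ᶜ) => ((z : G) : Perm α)) hk
    simpa using h4

end Cfsg.Agent.Lib.Helper63.Alt2P
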