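import Mathlib

set_option autoImplicit false

namespace Cfsg.Agent.Lib.Helper63.Alt2P

open Equiv Equiv.Perm MulAction

theorem even_fix_unique {α : Type*} [Fintype α] [DecidableEq α]
    (x t : Perm α) (hxc : x.IsCycle) (hxs : x.support.card = 11) (ht : t ≠ 1)
    (hfix : ∀ i, x i = i → t i = i) (hn : t * x * t⁻¹ ∈ Subgroup.zpowers x)
    (c c' : α) (hc : x c ≠ c) (hc' : x c' ≠ c') (tc : t c = c) (tc' : t c' = c') : c = c' := by
  by_contra hne
  have ho : orderOf x = 11 := by rw [hxc.orderOf, hxs]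
  obtain ⟨k, hk⟩ := (mem_powers_iff_mem_zpowers).2 hn
  have hk' : t * x * t⁻¹ = x ^ k := hk.symm
  obtain ⟨i, hi⟩ := hxc.exists_pow_eq hc hc'
  have h1 : t * x ^ i * t⁻¹ = x ^ (k * i) := by
    rw [← conj_pow, hk', pow_mul]
  have tic : t⁻¹ c = c := by
    rw [Perm.inv_eq_iff_eq, tc]
  have h2 : (x ^ (k * i)) c = (x ^ i) c := by
    rw [← h1, Perm.mul_apply, Perm.mul_apply, tic, hi, tc']
  have h3 : x ^ (k * i) = x ^ i := hxc.pow_eq_pow_iff.2 ⟨c, hc, h2⟩
  rw [h3] at h1
  have hxi : x ^ i ≠ 1 := by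
    intro h; rw [h] at hi; exact hne hi
  have hcop : Nat.Coprime i (orderOf x) := by
    rw [ho]
    have h11 : Nat.Prime 11 := by norm_num
    rw [Nat.coprime_comm, h11.coprime_iff_not_dvd]
    intro hd
    apply hxi
    rw [← ho] at hd
    exact orderOf_dvd_iff_pow_eq_one.1 hd
  obtain ⟨m, hm⟩ := exists_pow_eq_self_of_coprime hcop
  have h4 : t * x * t⁻¹ = x := by
    calc t * x * t⁻¹ = t * (x ^ i) ^ m * t⁻¹ := by rw [hm]
      _ = (t * x ^ i * t⁻¹) ^ m := by rw [conj_pow]
      _ = x := by rw [h1, hm]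
  have hcomm : Commute t x := by
    have : t * x = x * t := by
      calc t * x = (t * x * t⁻¹) * t := by group
        _ = x * t := by rw [h4]
    exact this
  apply ht
  ext w
  by_cases hw : x w = w
  · simpa using hfix w hw
  · obtain ⟨j, hj⟩ := hxc.exists_pow_eq hc hw
    have := congrArg (fun f : Perm α => f c) (hcomm.pow_right j).eq
    simp only [Perm.mul_apply] at this
    rw [tc, hj] at this
    simpa using this

theorem invol_odd {α : Type*} [Fintype α] [DecidableEq α] (hα : Fintype.card α = 13)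
    (x t : Perm α) (hxc : x.IsCycle) (hxs : x.support.card = 11) (ht : orderOf t = 2)
    (hfix : ∀ i, x i = i → t i = i) (hn : t * x * t⁻¹ ∈ Subgroup.zpowers x) :
    Perm.sign t = -1 := by
  have ht1 : t ≠ 1 := by
    intro h; rw [h] at ht; simp at ht
  have hsub : t.support ⊆ x.support := by
    intro i hi
    rw [mem_support] at hi ⊢
    exact fun h => hi (hfix i h)
  have hle1 : (x.support \ t.support).card ≤ 1 := by
    rw [Finset.card_le_one]
    intro a ha b hb
    rw [Finset.mem_sdiff, mem_support, notMem_support] at ha hb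
    exact even_fix_unique x t hxc hxs ht1 hfix hn a b ha.1 hb.1 ha.2 hb.2
  have hcard : (x.support \ t.support).card = 11 - t.support.card := by
    rw [Finset.card_sdiff_of_subset hsub, hxs]
  have hle : t.support.card ≤ 11 := hxs ▸ Finset.card_le_card hsub
  obtain ⟨n, hn2⟩ := cycleType_prime_order (σ := t) (by rw [ht]; norm_num)
  rw [ht] at hn2
  have hsum : t.support.card = (n + 1) * 2 := by
    rw [← sum_cycleType, hn2, Multiset.sum_replicate, smul_eq_mul]
  have hn4 : n = 4 := by omega
  subst hn4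
  rw [sign_of_cycleType, hn2]
  simp
  decide

end Cfsg.Agent.Lib.Helper63.Alt2P
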