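import Mathlib

set_option autoImplicit false

/-! Ladder ALT2P (S4150), rung HA1 (helper98). -/

namespace Cfsg.Agent.Lib.Helper63.Alt2P

open Equiv Equiv.Perm MulAction

theorem hallA1 {α : Type*} [Fintype α] [DecidableEq α] (hα : Fintype.card α = 13) (u : Perm α)
    (hu : u ≠ 1) {k : ℕ} (hk : u ^ (5 ^ k) = 1) (e : Fin 3 ↪ α) (he : ∀ i, u (e i) = e i) :
    u.cycleType = {5} ∨ u.cycleType = {5, 5} := by
  have hsupp : u.support.card ≤ 10 := by
    have hd : Disjoint u.support (Finset.univ.map e) := by
      rw [Finset.disjoint_left]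
      intro x hx hx'
      obtain ⟨i, -, rfl⟩ := Finset.mem_map.mp hx'
      exact (mem_support.mp hx) (he i)
    have h1 := Finset.card_union_of_disjoint hd
    have h2 := Finset.card_le_univ (u.support ∪ Finset.univ.map e)
    rw [Finset.card_map, Finset.card_univ, Fintype.card_fin] at h1
    omega
  have hall : ∀ n ∈ u.cycleType, n = 5 := by
    intro n hn
    have h1 : n ∣ 5 ^ k := (dvd_of_mem_cycleType hn).trans (orderOf_dvd_of_pow_eq_one hk)
    have h2 : 2 ≤ n := two_le_of_mem_cycleType hn
    have h3 : n ≤ 10 := by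
      have := Multiset.le_sum_of_mem hn
      rw [sum_cycleType] at this
      omega
    obtain ⟨j, -, rfl⟩ := (Nat.dvd_prime_pow Nat.prime_five).mp h1
    rcases j with _ | _ | j
    · simp at h2
    · simp
    · exfalso
      have : 5 ^ 2 ≤ 5 ^ (j + 1 + 1) := Nat.pow_le_pow_right (by norm_num) (by omega)
      omega
  have hrep := Multiset.eq_replicate_card.mpr hall
  have hsum : Multiset.card u.cycleType * 5 ≤ 10 := by
    have h1 := sum_cycleType u
    rw [hrep, Multiset.sum_replicate, smul_eq_mul] at h1
    omega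
  have hne : Multiset.card u.cycleType ≠ 0 := by
    intro h0
    apply hu
    rw [← cycleType_eq_zero]
    exact Multiset.card_eq_zero.mp h0
  have hc : Multiset.card u.cycleType = 1 ∨ Multiset.card u.cycleType = 2 := by omega
  rcases hc with hc | hc
  · left
    rw [hrep, hc]
    rfl
  · right
    rw [hrep, hc]
    rfl

end Cfsg.Agent.Lib.Helper63.Alt2P
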