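import Mathlib

set_option autoImplicit false

/-! Ladder ALT2P (S4150), rung HA2 (helper98). -/

namespace Cfsg.Agent.Lib.Helper63.Alt2P

open Equiv Equiv.Perm MulAction

theorem hallA2 {α : Type*} [Fintype α] [DecidableEq α] (hα : Fintype.card α = 13)
    (G : Subgroup (Perm α)) (h4 : IsMultiplyPretransitive G α 4) (e : Fin 3 ↪ α) :
    5 ∣ Nat.card (stabilizer G e) := by
  have h4' : IsPretransitive G (Fin 4 ↪ α) := h4
  have h3 : IsPretransitive G (Fin 3 ↪ α) :=
    isMultiplyPretransitive_of_le (G := G) (α := α) (m := 3) (n := 4) (by norm_num)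
      (by rw [Nat.card_eq_fintype_card, hα]; norm_num)
  obtain ⟨e4⟩ : Nonempty (Fin 4 ↪ α) :=
    Function.Embedding.nonempty_of_card_le (by rw [Fintype.card_fin, hα]; norm_num)
  have i3 : (stabilizer G e).index = Nat.card (Fin 3 ↪ α) :=
    @index_stabilizer_of_transitive G _ _ _ e h3
  have i4 : (stabilizer G e4).index = Nat.card (Fin 4 ↪ α) :=
    @index_stabilizer_of_transitive G _ _ _ e4 h4'
  rw [Nat.card_eq_fintype_card, Fintype.card_embedding_eq, hα, Fintype.card_fin] at i3 i4
  have c3 := Subgroup.card_mul_index (stabilizer G e)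
  have c4 := Subgroup.card_mul_index (stabilizer G e4)
  rw [i3] at c3
  rw [i4] at c4
  have d3 : Nat.descFactorial 13 3 = 1716 := by decide
  have d4 : Nat.descFactorial 13 4 = 17160 := by decide
  rw [d3] at c3
  rw [d4] at c4
  omega

end Cfsg.Agent.Lib.Helper63.Alt2P
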