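import Mathlib
import Cfsg.Agent.S4219
import Cfsg.Agent.Lib.Helper63.Alt2P.HA1
import Cfsg.Agent.Lib.Helper63.Alt2P.HA2

set_option autoImplicit false

namespace Cfsg.Agent.Lib.Helper63.Alt2P

open Equiv Equiv.Perm MulAction

/-- a permutation of type `{5,5}` on 13 points cannot fix four distinct points -/
theorem hallA_fix {α : Type*} [Fintype α] [DecidableEq α] (hα : Fintype.card α = 13)
    (u : Perm α) (hu : u.cycleType = {5, 5}) (e : Fin 3 ↪ α) (he : ∀ i, u (e i) = e i)
    (w : α) (hw : w ∉ Set.range e) (huw : u w = w) : False := by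
  have hs : u.support.card = 10 := by
    rw [← Equiv.Perm.sum_cycleType, hu]; rfl
  set S : Finset α := insert w (Finset.univ.map e) with hS
  have hScard : S.card = 4 := by
    rw [hS, Finset.card_insert_of_notMem, Finset.card_map, Finset.card_univ, Fintype.card_fin]
    intro h
    rw [Finset.mem_map] at h
    obtain ⟨i, -, hi⟩ := h
    exact hw ⟨i, hi⟩
  have hdisj : Disjoint u.support S := by
    rw [Finset.disjoint_left]
    intro x hx hxS
    rw [Equiv.Perm.mem_support] at hx
    rw [hS, Finset.mem_insert, Finset.mem_map] at hxS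
    rcases hxS with rfl | ⟨i, -, rfl⟩
    · exact hx huw
    · exact hx (he i)
  have h1 := Finset.card_le_univ (u.support ∪ S)
  rw [Finset.card_union_of_disjoint hdisj, hs, hScard, hα] at h1
  omega

theorem hallA {α : Type*} [Fintype α] [DecidableEq α] (hα : Fintype.card α = 13)
    (G : Subgroup (Perm α)) (h4 : IsMultiplyPretransitive G α 4) :
    (∃ z ∈ G, z.IsCycle ∧ z.support.card = 5) ∨
    (∃ z ∈ G, ∃ g ∈ G, z.cycleType = {5, 5} ∧ g * z * g⁻¹ ∈ Subgroup.zpowers z ∧
      ∃ e0 e1 e2 : α, e0 ≠ e1 ∧ e1 ≠ e2 ∧ e0 ≠ e2 ∧ z e0 = e0 ∧ z e1 = e1 ∧ z e2 = e2 ∧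
        g e0 = e1 ∧ g e1 = e2 ∧ g e2 = e0) := by
  have : Fact (Nat.Prime 5) := ⟨by norm_num⟩
  have h3 : IsMultiplyPretransitive G α 3 :=
    isMultiplyPretransitive_of_le (G := G) (α := α) (m := 3) (n := 4) (by norm_num)
      (by rw [Nat.card_eq_fintype_card, hα]; norm_num)
  obtain ⟨e⟩ : Nonempty (Fin 3 ↪ α) :=
    Function.Embedding.nonempty_of_card_le (by rw [Fintype.card_fin, hα]; norm_num)
  have h5 := hallA2 hα G h4 e
  obtain ⟨z0, hz0⟩ := exists_prime_orderOf_dvd_card' (G := stabilizer G e) 5 h5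
  have hQ0 : IsPGroup 5 (Subgroup.zpowers z0) :=
    IsPGroup.of_card (n := 1) (by rw [Nat.card_zpowers, hz0, pow_one])
  obtain ⟨P, hP⟩ := hQ0.exists_le_sylow
  set Q : Subgroup G := (P : Subgroup (stabilizer G e)).map (stabilizer G e).subtype with hQ
  have hz0Q : (z0 : G) ∈ Q := ⟨z0, hP (Subgroup.mem_zpowers z0), rfl⟩
  -- elements of Q fix the e i and have 5-power order
  have hQfix : ∀ u ∈ Q, ∀ i, (u : Perm α) (e i) = e i := by
    rintro _ ⟨u, -, rfl⟩ i
    have h := u.2
    rw [mem_stabilizer_iff] at h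
    exact congrArg (fun f : Fin 3 ↪ α => f i) h
  have hQpow : ∀ u ∈ Q, ∃ k : ℕ, (u : Perm α) ^ (5 ^ k) = 1 := by
    rintro _ ⟨u, hu, rfl⟩
    obtain ⟨k, hk⟩ := P.isPGroup' ⟨u, hu⟩
    refine ⟨k, ?_⟩
    have h1 : u ^ (5 ^ k) = 1 := by
      have := congrArg Subtype.val hk
      simpa using this
    have h2 := congrArg (fun v : stabilizer G e => ((v : G) : Perm α)) h1
    simpa using h2
  have hQtype : ∀ u ∈ Q, u ≠ 1 →
      (u : Perm α).cycleType = {5} ∨ (u : Perm α).cycleType = {5, 5} := by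
    intro u hu hu1
    obtain ⟨k, hk⟩ := hQpow u hu
    exact hallA1 hα (u : Perm α) (fun h => hu1 (Subtype.ext h)) hk e (hQfix u hu)
  by_cases hex : ∃ u ∈ Q, (u : Perm α).cycleType = {5}
  · left
    obtain ⟨u, -, hu⟩ := hex
    refine ⟨u, u.2, ?_, ?_⟩
    · rw [← Equiv.Perm.card_cycleType_eq_one, hu]; rfl
    · rw [← Equiv.Perm.sum_cycleType, hu]; rfl
  · right
    push Not at hex
    have hQ55 : ∀ u ∈ Q, u ≠ 1 → (u : Perm α).cycleType = {5, 5} := by
      intro u hu hu1
      rcases hQtype u hu hu1 with h | h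
      · exact absurd h (hex u hu)
      · exact h
    -- a point outside the range of e
    obtain ⟨w, hw⟩ : ∃ w : α, w ∉ Set.range e := by
      by_contra hcon
      push Not at hcon
      have hsurj : Function.Surjective e := hcon
      have := Fintype.card_le_of_surjective e hsurj
      rw [hα, Fintype.card_fin] at this
      omega
    have hinj : Function.Injective (fun u : Q => ((u : G) : Perm α) w) := by
      intro u v huv
      by_contra hne
      have hmem : (v : G)⁻¹ * (u : G) ∈ Q := Q.mul_mem (Q.inv_mem v.2) u.2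
      have hne1 : (v : G)⁻¹ * (u : G) ≠ 1 := by
        intro h
        apply hne
        apply Subtype.ext
        have := inv_mul_eq_one.mp h
        exact this.symm
      refine hallA_fix hα _ (hQ55 _ hmem hne1) e (hQfix _ hmem) w hw ?_
      have huv' : ((u : G) : Perm α) w = ((v : G) : Perm α) w := huv
      simp only [Subgroup.coe_mul, Subgroup.coe_inv, Equiv.Perm.mul_apply]
      rw [huv']
      simp
    have hQcard_le : Nat.card Q ≤ 13 := by
      rw [← hα, ← Nat.card_eq_fintype_card]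
      exact Nat.card_le_card_of_injective _ hinj
    have hQp : IsPGroup 5 Q := P.isPGroup'.map _
    obtain ⟨n, hn⟩ := IsPGroup.iff_card.mp hQp
    have hoz : orderOf (z0 : G) = 5 := by rw [Subgroup.orderOf_coe, hz0]
    have hzle : Subgroup.zpowers (z0 : G) ≤ Q := by
      rw [Subgroup.zpowers_le]; exact hz0Q
    have hzcard : Nat.card (Subgroup.zpowers (z0 : G)) = 5 := by rw [Nat.card_zpowers, hoz]
    have hn1 : n ≤ 1 := by
      by_contra hcon
      have h2 : 2 ≤ n := by omega
      have : 5 ^ 2 ≤ 5 ^ n := Nat.pow_le_pow_right (by norm_num) h2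
      rw [← hn] at this
      omega
    have hQeq : Subgroup.zpowers (z0 : G) = Q := by
      apply Subgroup.eq_of_le_of_card_ge hzle
      rw [hzcard, hn]
      calc 5 ^ n ≤ 5 ^ 1 := Nat.pow_le_pow_right (by norm_num) hn1
        _ = 5 := by norm_num
    have hz1 : (z0 : G) ≠ 1 := by
      intro h
      rw [h, orderOf_one] at hoz
      omega
    -- Witt
    set b : Fin 3 ↪ α := (finRotate 3).toEmbedding.trans e with hb
    have hfixQ : ∀ i, e i ∈ fixedPoints Q α := by
      intro i u
      exact hQfix u u.2 i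
    obtain ⟨g, hgN, hg⟩ := Cfsg.Agent.S4219.result h3 e P e b hfixQ (fun i => hfixQ _)
    have hgi : ∀ i, (g : Perm α) (e i) = e (finRotate 3 i) := by
      intro i
      exact congrArg (fun f : Fin 3 ↪ α => f i) hg
    have hconj : g * (z0 : G) * g⁻¹ ∈ Subgroup.zpowers (z0 : G) := by
      rw [hQeq]
      exact (Subgroup.mem_normalizer_iff.mp hgN (z0 : G)).mp hz0Q
    refine ⟨((z0 : G) : Perm α), (z0 : G).2, (g : Perm α), g.2, hQ55 _ hz0Q hz1, ?_,
      e 0, e 1, e 2, ?_, ?_, ?_, hQfix _ hz0Q 0, hQfix _ hz0Q 1, hQfix _ hz0Q 2, ?_, ?_, ?_⟩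
    · obtain ⟨k, hk⟩ := Subgroup.mem_zpowers_iff.mp hconj
      rw [Subgroup.mem_zpowers_iff]
      refine ⟨k, ?_⟩
      have := congrArg (fun v : G => (v : Perm α)) hk
      simpa using this
    · intro h; exact absurd (e.injective h) (by decide)
    · intro h; exact absurd (e.injective h) (by decide)
    · intro h; exact absurd (e.injective h) (by decide)
    · rw [hgi]; rfl
    · rw [hgi]; rfl
    · rw [hgi]; rfl

end Cfsg.Agent.Lib.Helper63.Alt2P
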