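import Mathlib

set_option autoImplicit false

namespace Cfsg.Agent.Lib.Helper63.Alt2P

open Equiv Equiv.Perm MulAction

theorem hb_conj_pow {α : Type*} (z g : Perm α) (n : ℕ) (h : g * z * g⁻¹ = z ^ n) (j : ℕ) :
    g ^ j * z * (g ^ j)⁻¹ = z ^ (n ^ j) := by
  induction j with
  | zero => simp
  | succ j ih =>
    have h1 : g ^ (j+1) * z * (g ^ (j+1))⁻¹ = g * (g ^ j * z * (g ^ j)⁻¹) * g⁻¹ := by
      rw [pow_succ']; group
    rw [h1, ih]
    have h2 : g * z ^ (n ^ j) * g⁻¹ = (g * z * g⁻¹) ^ (n ^ j) := by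
      rw [conj_pow]
    rw [h2, h, ← pow_mul, pow_succ']

theorem hb_three {β : Type*} [DecidableEq β] (s : Finset β) (hs : s.card = 2) (a b c : β)
    (ha : a ∈ s) (hb : b ∈ s) (hc : c ∈ s) : a = b ∨ b = c ∨ a = c := by
  by_contra hcon
  push Not at hcon
  obtain ⟨h1, h2, h3⟩ := hcon
  have h4 : ({a, b, c} : Finset β).card = 3 := Finset.card_eq_three.2 ⟨a, b, c, h1, h3, h2, rfl⟩
  have h5 : ({a, b, c} : Finset β) ⊆ s := by
    intro x hx
    simp only [Finset.mem_insert, Finset.mem_singleton] at hx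
    rcases hx with rfl | rfl | rfl <;> assumption
  have := Finset.card_le_card h5
  omega

theorem hb_same {α : Type*} [Fintype α] [DecidableEq α] (z : Perm α) (x y : α)
    (hy : y ∈ z.support) (h : z.cycleOf x = z.cycleOf y) : z.SameCycle x y := by
  have h1 : y ∈ (z.cycleOf y).support := mem_support_cycleOf_iff.2 ⟨SameCycle.refl _ _, hy⟩
  rw [← h] at h1
  exact (mem_support_cycleOf_iff.1 h1).1

theorem hallB {α : Type*} [Fintype α] [DecidableEq α] (z g : Perm α) (hz : z.cycleType = {5, 5})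
    (hg : g * z * g⁻¹ ∈ Subgroup.zpowers z) : ∀ i ∈ z.support, (g ^ 40) i = i := by
  have ho : orderOf z = 5 := by
    rw [← lcm_cycleType, hz]; simp
  have hz1 : z ≠ 1 := by
    intro h; rw [h] at ho; simp at ho
  obtain ⟨n, hn⟩ := (mem_powers_iff_mem_zpowers).2 hg
  have hn' : g * z * g⁻¹ = z ^ n := hn.symm
  have hn5 : n % 5 ≠ 0 := by
    intro h0
    have : z ^ n = 1 := by
      rw [← pow_mod_orderOf, ho, h0, pow_zero]
    rw [this] at hn'
    apply hz1
    have h2 : z = g⁻¹ * (g * z * g⁻¹) * g := by group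
    rw [h2, hn']; group
  have h4 := hb_conj_pow z g n hn' 4
  have hn4 : n ^ 4 % 5 = 1 := by
    rw [Nat.pow_mod]
    have h5 : n % 5 < 5 := Nat.mod_lt _ (by norm_num)
    generalize n % 5 = r at h5 hn5
    interval_cases r
    · exact absurd rfl hn5
    all_goals norm_num
  have hz4 : z ^ (n ^ 4) = z := by
    rw [← pow_mod_orderOf, ho, hn4, pow_one]
  rw [hz4] at h4
  set h := g ^ 4 with hh
  have hcomm : Commute h z := by
    have : h * z = z * h := by
      calc h * z = (h * z * h⁻¹) * h := by group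
        _ = z * h := by rw [h4]
    exact this
  have hcard : z.cycleFactorsFinset.card = 2 := by
    have h1 : Multiset.card z.cycleType = z.cycleFactorsFinset.card := by
      rw [cycleType_def, Multiset.card_map]; rfl
    rw [← h1, hz]; rfl
  have hsupp : ∀ w ∈ z.support, h w ∈ z.support := by
    intro w hw
    rw [mem_support] at hw ⊢
    intro h1
    apply hw
    have h2 : h (z w) = z (h w) := by
      have := congrArg (fun f : Perm α => f w) hcomm.eq
      simpa [Perm.mul_apply] using this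
    apply h.injective
    rw [h2, h1]
  have hcz : ∀ (a : ℤ) (w : α), h ((z ^ a) w) = (z ^ a) (h w) := by
    intro a w
    have := congrArg (fun f : Perm α => f w) (hcomm.zpow_right a).eq
    simpa [Perm.mul_apply] using this
  intro w hw
  have key : ∃ b : ℤ, h (h w) = (z ^ b) w := by
    have h1 := hsupp w hw
    have h2 := hsupp _ h1
    rcases hb_three _ hcard (z.cycleOf w) (z.cycleOf (h w)) (z.cycleOf (h (h w)))
      (cycleOf_mem_cycleFactorsFinset_iff.2 hw) (cycleOf_mem_cycleFactorsFinset_iff.2 h1)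
      (cycleOf_mem_cycleFactorsFinset_iff.2 h2) with e | e | e
    · obtain ⟨a, ha⟩ := hb_same z _ _ h1 e
      refine ⟨a + a, ?_⟩
      rw [← ha, hcz, ← ha, zpow_add, Perm.mul_apply]
    · obtain ⟨a, ha⟩ := hb_same z _ _ h2 e
      have h3 : (z ^ a) w = h w := by
        apply h.injective; rw [hcz, ha]
      refine ⟨a + a, ?_⟩
      rw [← ha, ← h3, zpow_add, Perm.mul_apply]
    · obtain ⟨a, ha⟩ := hb_same z _ _ h2 e
      exact ⟨a, ha.symm⟩
  obtain ⟨b, hb⟩ := key
  have hpow : ∀ k : ℕ, ((h ^ 2) ^ k) w = (z ^ ((k:ℤ) * b)) w := by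
    intro k
    induction k with
    | zero => simp
    | succ k ih =>
      rw [pow_succ', Perm.mul_apply, ih]
      have h5 : (h ^ 2) ((z ^ ((k:ℤ) * b)) w) = (z ^ ((k:ℤ) * b)) (h (h w)) := by
        rw [pow_two, Perm.mul_apply, hcz, hcz]
      rw [h5, hb, ← Perm.mul_apply, ← zpow_add]
      have h6 : (k:ℤ) * b + b = ((k + 1 : ℕ) : ℤ) * b := by push_cast; ring
      rw [h6]
  have h40 : g ^ 40 = (h ^ 2) ^ 5 := by
    rw [hh, ← pow_mul, ← pow_mul]
  rw [h40, hpow 5]
  have h7 : z ^ (((5:ℕ):ℤ) * b) = 1 := by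
    rw [zpow_mul, zpow_natCast, ← ho, pow_orderOf_eq_one, one_zpow]
  rw [h7]; rfl

end Cfsg.Agent.Lib.Helper63.Alt2P
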