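import Mathlib

set_option autoImplicit false

namespace Cfsg.Agent.Lib.Helper63.Alt2P

open Equiv Equiv.Perm MulAction

theorem hallC {α : Type*} [Fintype α] [DecidableEq α] (hα : Fintype.card α = 13)
    (z g : Perm α) (hz : z.cycleType = {5, 5}) (hg : ∀ i ∈ z.support, (g ^ 40) i = i)
    (e0 e1 e2 : α) (h01 : e0 ≠ e1) (h12 : e1 ≠ e2) (h02 : e0 ≠ e2)
    (z0 : z e0 = e0) (z1 : z e1 = e1) (z2 : z e2 = e2)
    (g0 : g e0 = e1) (g1 : g e1 = e2) (g2 : g e2 = e0) : (g ^ 40).IsThreeCycle := by
  have hzs : z.support.card = 10 := by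
    rw [← sum_cycleType, hz]; rfl
  have hcompl : z.supportᶜ = {e0, e1, e2} := by
    symm
    apply Finset.eq_of_subset_of_card_le
    · intro i hi
      simp only [Finset.mem_insert, Finset.mem_singleton] at hi
      rw [Finset.mem_compl, notMem_support]
      rcases hi with rfl | rfl | rfl <;> assumption
    · rw [Finset.card_compl, hα, hzs]
      rw [Finset.card_insert_of_notMem (by simp [h01, h02]),
        Finset.card_insert_of_notMem (by simp [h12]), Finset.card_singleton]
  have h3 : ∀ i ∈ ({e0, e1, e2} : Finset α), (g ^ 3) i = i := by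
    intro i hi
    simp only [Finset.mem_insert, Finset.mem_singleton] at hi
    rcases hi with rfl | rfl | rfl <;> simp [pow_succ, g0, g1, g2]
  have h39 : ∀ i ∈ ({e0, e1, e2} : Finset α), (g ^ 39) i = i := by
    intro i hi
    have : g ^ 39 = (g ^ 3) ^ 13 := by rw [← pow_mul]
    rw [this]
    exact (pow_apply_eq_self_of_apply_eq_self (h3 i hi) 13)
  have h40 : ∀ i ∈ ({e0, e1, e2} : Finset α), (g ^ 40) i = g i := by
    intro i hi
    rw [pow_succ', Perm.mul_apply, h39 i hi]
  rw [← card_support_eq_three_iff]
  have hsupp : (g ^ 40).support = {e0, e1, e2} := by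
    ext i
    rw [mem_support]
    constructor
    · intro hi
      rw [← hcompl, Finset.mem_compl]
      intro hi'
      exact hi (hg i hi')
    · intro hi
      rw [h40 i hi]
      simp only [Finset.mem_insert, Finset.mem_singleton] at hi
      rcases hi with rfl | rfl | rfl
      · rw [g0]; exact h01.symm
      · rw [g1]; exact h12.symm
      · rw [g2]; exact h02
  rw [hsupp, Finset.card_insert_of_notMem (by simp [h01, h02]),
        Finset.card_insert_of_notMem (by simp [h12]), Finset.card_singleton]

end Cfsg.Agent.Lib.Helper63.Alt2P
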