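import Mathlib

set_option autoImplicit false

namespace Cfsg.Agent.Lib.Helper63.Alt2P

open Equiv Equiv.Perm MulAction

theorem jordan_trans {α : Type*} [Fintype α] [DecidableEq α] (G : Subgroup (Perm α))
    (hG : IsPreprimitive G α) (x : Perm α) (hxG : x ∈ G) (hxc : x.IsCycle)
    (hp : x.support.card.Prime) {n : ℕ} (hn : Fintype.card α = x.support.card + (n + 1)) :
    IsMultiplyPretransitive G α (n + 2) := by
  classical
  suffices IsMultiplyPreprimitive G α (n + 2) from
    IsMultiplyPreprimitive.isMultiplyPretransitive ..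
  have h2 := hp.two_le
  apply hG.isMultiplyPreprimitive (s := (x.supportᶜ : Set α))
  · apply Nat.add_left_cancel
    rw [Set.ncard_add_ncard_compl, Set.ncard_coe_finset, Nat.card_eq_fintype_card, hn]
  · rw [Nat.card_eq_fintype_card, hn]; omega
  have := isPretransitive_of_isCycle_mem hxc hxG
  apply IsPreprimitive.of_prime_card
  convert hp
  rw [Nat.card_eq_fintype_card, Fintype.card_subtype]
  apply congr_arg
  ext i
  simp [SubMulAction.mem_ofFixingSubgroup_iff]

end Cfsg.Agent.Lib.Helper63.Alt2P
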