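import Mathlib
import Cfsg.Agent.Lib.Helper15.Sharp2

set_option autoImplicit false

namespace Cfsg.Agent.Lib.Helper63.Alt2P

open Equiv Equiv.Perm MulAction

/-- a `k`-transitive finite action with `|G| = n (n-1) ... (n-k+1)` is sharply `k`-transitive -/
theorem sh2_sharp_of_card {G Ω : Type*} [Group G] [MulAction G Ω] [Finite G] [Finite Ω] {k : ℕ}
    (hk : IsMultiplyPretransitive G Ω k) (hcard : Nat.card G = (Nat.card Ω).descFactorial k)
    (h : k ≤ Nat.card Ω) (x : Fin k ↪ Ω) : stabilizer G x = ⊥ := by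
  classical
  have := Fintype.ofFinite Ω
  have := Fintype.ofFinite G
  have h1 := MulAction.card_orbit_mul_card_stabilizer_eq_card_group G x
  simp only [← Nat.card_eq_fintype_card] at h1
  have h2 : orbit G x = Set.univ := by
    ext y
    simp only [Set.mem_univ, iff_true]
    obtain ⟨g, hg⟩ := hk.exists_smul_eq x y
    exact ⟨g, hg⟩
  have h3 : Nat.card (orbit G x) = (Nat.card Ω).descFactorial k := by
    rw [h2, Nat.card_coe_set_eq, Set.ncard_univ, Nat.card_eq_fintype_card,
      Fintype.card_embedding_eq, Fintype.card_fin, Nat.card_eq_fintype_card]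
  rw [h3, hcard] at h1
  have hpos : 0 < (Nat.card Ω).descFactorial k := Nat.descFactorial_pos.2 h
  have h4 : Nat.card (stabilizer G x) = 1 := by
    have := Nat.eq_of_mul_eq_mul_left hpos (h1.trans (mul_one _).symm)
    exact this
  exact Subgroup.card_eq_one.1 h4

theorem sharp2_primePow {G Ω : Type*} [Group G] [MulAction G Ω] [Finite G] [Finite Ω]
    (h2 : IsMultiplyPretransitive G Ω 2) (hcard : Nat.card G = Nat.card Ω * (Nat.card Ω - 1))
    (h : 2 ≤ Nat.card Ω) : IsPrimePow (Nat.card Ω) := by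
  have hs := sh2_sharp_of_card h2 (by rw [hcard]; simp [Nat.descFactorial, mul_comm]) h
  have hS : Cfsg.Agent.Lib.Helper15.Sharp2 G Ω := Cfsg.Agent.Lib.Helper15.Sharp2.of_embeddings hs
  obtain ⟨p, j, hp, hj, hc, _⟩ := hS.main h
  rw [hc]
  exact hp.isPrimePow.pow (by omega)

end Cfsg.Agent.Lib.Helper63.Alt2P
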