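import Mathlib
import Cfsg.Agent.Lib.Helper15.Sharp2
import Cfsg.Agent.Lib.Helper10.SharpStep
import Cfsg.Agent.Lib.Helper63.Alt2P.SH2

set_option autoImplicit false

namespace Cfsg.Agent.Lib.Helper63.Alt2P

open Equiv Equiv.Perm MulAction

theorem sharp3_primePow {G Ω : Type*} [Group G] [MulAction G Ω] [Finite G] [Finite Ω]
    (h3 : IsMultiplyPretransitive G Ω 3)
    (hcard : Nat.card G = Nat.card Ω * (Nat.card Ω - 1) * (Nat.card Ω - 2))
    (h : 3 ≤ Nat.card Ω) : IsPrimePow (Nat.card Ω - 1) := by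
  classical
  have := Fintype.ofFinite Ω
  have hs := sh2_sharp_of_card h3
    (by rw [hcard]; simp only [Nat.descFactorial, Nat.sub_zero]; ring) h
  have hne : Nonempty (Fin 3 ↪ Ω) := by
    rw [Function.Embedding.nonempty_iff_card_le, Fintype.card_fin, ← Nat.card_eq_fintype_card]
    exact h
  obtain ⟨e⟩ := hne
  obtain ⟨k1, k2, k3⟩ := Cfsg.Agent.Lib.Helper10.sharp_step (k := 2) h3 hs ⟨e⟩ (e 0)
  have hS : Cfsg.Agent.Lib.Helper15.Sharp2 (stabilizer G (e 0)) (SubMulAction.ofStabilizer G (e 0)) :=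
    Cfsg.Agent.Lib.Helper15.Sharp2.of_embeddings k2
  have hc := SubMulAction.nat_card_ofStabilizer_add_one_eq G (e 0)
  obtain ⟨p, j, hp, hj, hc', _⟩ := hS.main (by omega)
  have : Nat.card Ω - 1 = p ^ j := by omega
  rw [this]
  exact hp.isPrimePow.pow (by omega)

end Cfsg.Agent.Lib.Helper63.Alt2P
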