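import Mathlib
import Cfsg.Agent.S0713
import Cfsg.Agent.Lib.Helper16.MultTrans
import Cfsg.Agent.Lib.Helper63.Alt2P.JT
import Cfsg.Agent.Lib.Helper63.Alt2P.DICH
import Cfsg.Agent.Lib.Helper63.Alt2P.HA3
import Cfsg.Agent.Lib.Helper63.Alt2P.HB
import Cfsg.Agent.Lib.Helper63.Alt2P.HC
import Cfsg.Agent.Lib.Helper63.Alt2P.EVEN
import Cfsg.Agent.Lib.Helper63.Alt2P.CNT
import Cfsg.Agent.Lib.Helper63.Alt2P.SH3

set_option autoImplicit false

namespace Cfsg.Agent.Lib.Helper63.Alt2P

open Equiv Equiv.Perm MulAction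

theorem hall13 {α : Type*} [Fintype α] [DecidableEq α] (hα : Fintype.card α = 13)
    (G : Subgroup (Perm α)) (hprim : IsPreprimitive G α)
    (h4 : IsMultiplyPretransitive G α 4) : alternatingGroup α ≤ G := by
  rcases hallA hα G h4 with ⟨z, hzG, hzc, hzs⟩ |
    ⟨z, hzG, g, hgG, hz, hg, e0, e1, e2, h01, h12, h02, z0, z1, z2, g0, g1, g2⟩
  · exact Cfsg.Agent.S0713.result G hprim (p := 5) (by norm_num) (by omega) (by omega) hzc hzs hzG
  · have hB := hallB z g hz hg
    have hC := hallC hα z g hz hB e0 e1 e2 h01 h12 h02 z0 z1 z2 g0 g1 g2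
    exact alternatingGroup_le_of_isPreprimitive_of_isThreeCycle_mem hprim hC (G.pow_mem hgG 40)

theorem deg13 {α : Type*} [Fintype α] [DecidableEq α] (hα : Fintype.card α = 13)
    (G : Subgroup (Perm α)) (hGalt : G ≤ alternatingGroup α) [IsPretransitive G α]
    (x : Perm α) (hxG : x ∈ G) (hxc : x.IsCycle) (hxs : x.support.card = 11) :
    alternatingGroup α ≤ G := by
  have hcα : Nat.card α = 13 := by rw [Nat.card_eq_fintype_card, hα]
  have hprim : IsPreprimitive G α := IsPreprimitive.of_prime_card (by rw [hcα]; norm_num)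
  have h3 : IsMultiplyPretransitive G α 3 :=
    jordan_trans G hprim x hxG hxc (by rw [hxs]; norm_num) (n := 1) (by rw [hα, hxs])
  have h2 : IsMultiplyPretransitive G α 2 :=
    isMultiplyPretransitive_of_le (n := 3) (by norm_num) (by rw [hcα]; norm_num)
  have hs : ((x.support : Set α)ᶜ).ncard = 2 := by
    have := Set.ncard_add_ncard_compl (x.support : Set α)
    rw [Set.ncard_coe_finset, hxs, hcα] at this
    omega
  rcases dich G x hxG hxc (by rw [hxs]; norm_num) with h | ⟨hnorm, t, ht, hcard⟩
  · have h4 := Cfsg.Agent.Lib.Helper16.isMultiplyPretransitive_add_of_fixing h2 _ hs h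
    exact hall13 hα G hprim h4
  · exfalso
    have hidx := IsMultiplyPretransitive.index_of_fixingSubgroup_eq (G := G)
      ((x.support : Set α)ᶜ) (by rw [hs]; exact h2)
    rw [hs, hcα] at hidx
    have hch : Nat.choose 13 2 * Nat.factorial 2 = 156 := by decide
    rw [hch] at hidx
    have hG := Subgroup.card_mul_index (fixingSubgroup G ((x.support : Set α)ᶜ))
    rw [hidx, hcard, hxs] at hG
    rw [hxs] at ht hcard
    have ht' : t ∈ Nat.divisors 10 := by
      rw [Nat.mem_divisors]; exact ⟨ht, by norm_num⟩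
    have hdiv : Nat.divisors 10 = {1, 2, 5, 10} := by decide
    rw [hdiv] at ht'
    have heven : ¬ 2 ∣ t := by
      intro h2t
      have h2F : 2 ∣ Nat.card (fixingSubgroup G ((x.support : Set α)ᶜ)) := by
        rw [hcard]; exact Dvd.dvd.mul_left h2t 11
      obtain ⟨u, hu⟩ := exists_prime_orderOf_dvd_card' (G := fixingSubgroup G ((x.support : Set α)ᶜ)) 2 h2F
      have hu1 : orderOf ((u : G) : Perm α) = 2 := by
        rw [Subgroup.orderOf_coe, Subgroup.orderOf_coe, hu]
      have hufix : ∀ i, x i = i → ((u : G) : Perm α) i = i := by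
        intro i hi
        have := u.2
        rw [mem_fixingSubgroup_iff] at this
        exact this i (by simpa using hi)
      have hsgn := invol_odd hα x ((u : G) : Perm α) hxc hxs hu1 hufix
        (hnorm _ (u : G).2 hufix)
      have := hGalt (u : G).2
      rw [Equiv.Perm.mem_alternatingGroup, hsgn] at this
      exact absurd this (by decide)
    simp only [Finset.mem_insert, Finset.mem_singleton] at ht'
    rcases ht' with rfl | rfl | rfl | rfl
    · have := sharp3_primePow (G := G) (Ω := α) h3 (by rw [hcα, ← hG]) (by rw [hcα]; norm_num)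
      rw [hcα] at this
      obtain ⟨r, _, hr⟩ := (isPrimePow_iff_unique_prime_dvd).1 this
      have e2 := hr 2 ⟨by norm_num, by norm_num⟩
      have e3 := hr 3 ⟨by norm_num, by norm_num⟩
      omega
    · exact heven (by norm_num)
    · exact count13 hα G (by rw [← hG])
    · exact heven (by norm_num)

end Cfsg.Agent.Lib.Helper63.Alt2P
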