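import Mathlib

set_option autoImplicit false

namespace Cfsg.Agent.Lib.Helper63.Alt2P

open Equiv Equiv.Perm MulAction
open scoped Pointwise

theorem prim_pow_smul {α : Type*} (G : Subgroup (Perm α)) (g : G) (B : Set α)
    (h : g • B = B) (n : ℕ) : (g ^ n) • B = B := by
  induction n with
  | zero => simp
  | succ n ih => rw [pow_succ, mul_smul, h, ih]

theorem prim_of {α : Type*} [Fintype α] [DecidableEq α] (G : Subgroup (Perm α))
    [IsPretransitive G α] (b : Perm α) (hbG : b ∈ G) (hb : b.IsCycle)
    (hq : b.support.card.Prime) (hlt : Fintype.card α < 2 * b.support.card) :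
    IsPreprimitive G α := by
  obtain ⟨w, hw⟩ : b.support.Nonempty := by
    rw [← Finset.card_pos]; exact hq.pos
  have hw' : b w ≠ w := Equiv.Perm.mem_support.mp hw
  set β : G := ⟨b, hbG⟩ with hβ
  have hβpow : ∀ (n : ℕ) (x : α), (β ^ n) • x = (b ^ n) x := by
    intro n x
    rfl
  apply IsPreprimitive.of_isTrivialBlock_base w
  intro B hwB hB
  rcases hB.smul_eq_or_disjoint β with h | h
  · right
    apply hB.eq_univ_of_card_lt
    have hsub : (b.support : Set α) ⊆ B := by
      intro y hy
      have hy' : b y ≠ y := Equiv.Perm.mem_support.mp (by simpa using hy)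
      obtain ⟨i, hi⟩ := hb.exists_pow_eq hw' hy'
      have h1 := prim_pow_smul G β B h i
      rw [← h1, ← hi, ← hβpow]
      exact Set.smul_mem_smul_set hwB
    have hc : b.support.card ≤ B.ncard := by
      rw [← Set.ncard_coe_finset]
      exact Set.ncard_le_ncard hsub (Set.toFinite B)
    rw [Nat.card_eq_fintype_card]
    omega
  · left
    intro x hx y hy
    -- every point of B equals w
    have key : ∀ z ∈ B, z = w := by
      intro z hz
      by_contra hzw
      have hz' : b z ≠ z := by
        intro hfix
        have : z ∈ β • B := by
          have : β • z ∈ β • B := Set.smul_mem_smul_set hz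
          have h2 : β • z = z := hfix
          rwa [h2] at this
        exact (Set.disjoint_left.mp h this) hz
      obtain ⟨i, hi⟩ := hb.exists_pow_eq hw' hz'
      have h1 : (β ^ i) • B = B := by
        apply hB.smul_eq_of_mem hwB
        rw [hβpow, hi]; exact hz
      have hcop : i.Coprime (orderOf β) := by
        have ho : orderOf β = b.support.card := by
          rw [← hb.orderOf]
          exact Subgroup.orderOf_mk b hbG
        rw [ho, Nat.coprime_comm, Nat.Prime.coprime_iff_not_dvd hq]
        intro hdvd
        apply hzw
        rw [← hi]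
        have : b ^ i = 1 := by
          rw [← hb.orderOf] at hdvd
          exact orderOf_dvd_iff_pow_eq_one.mp hdvd
        rw [this]; rfl
      obtain ⟨m, hm⟩ := exists_pow_eq_self_of_coprime hcop
      have h2 := prim_pow_smul G (β ^ i) B h1 m
      rw [hm] at h2
      rw [h2] at h
      have : B = ∅ := by simpa using h
      rw [this] at hwB
      exact hwB
    rw [key x hx, key y hy]

end Cfsg.Agent.Lib.Helper63.Alt2P
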