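import Mathlib

set_option autoImplicit false

namespace Cfsg.Agent.Lib.Helper63.Alt2P

open Equiv Equiv.Perm MulAction

theorem card_dvd_factorial_index {S : Type*} [Group S] [Finite S] [IsSimpleGroup S]
    (H : Subgroup S) (hH : H ≠ ⊤) : Nat.card S ∣ H.index.factorial := by
  have hker : (MulAction.toPermHom S (S ⧸ H)).ker = ⊥ := by
    rcases (MulAction.toPermHom S (S ⧸ H)).normal_ker.eq_bot_or_eq_top with h | h
    · exact h
    · exfalso
      apply hH
      rw [eq_top_iff]
      rw [← Subgroup.normalCore_eq_ker] at h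
      rw [← h]
      exact Subgroup.normalCore_le H
  have hinj : Function.Injective (MulAction.toPermHom S (S ⧸ H)) :=
    (MonoidHom.ker_eq_bot_iff _).1 hker
  have := Subgroup.card_dvd_of_injective _ hinj
  rwa [Nat.card_perm] at this

end Cfsg.Agent.Lib.Helper63.Alt2P
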