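import Mathlib
import Cfsg.Agent.Lib.Helper63.Alt2P.SH2
import Cfsg.Agent.Lib.Helper63.Alt2P.SIDX
import Cfsg.Agent.Lib.Helper63.Alt2P.PRIM
import Cfsg.Agent.Lib.Helper63.Alt2P.JT
import Cfsg.Agent.Lib.Helper63.Alt2P.AIDX

set_option autoImplicit false

namespace Cfsg.Agent.Lib.Helper63.Alt2P

open Equiv Equiv.Perm MulAction

theorem m6 {α : Type*} [Fintype α] [DecidableEq α] (hα : Fintype.card α = 6)
    (G : Subgroup (Perm α)) (hGalt : G ≤ alternatingGroup α) [IsPretransitive G α]
    (b : Perm α) (hbG : b ∈ G) (hbc : b.IsCycle) (hbs : b.support.card = 5) :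
    alternatingGroup α ≤ G ∨ Nonempty (G ≃* alternatingGroup (Fin 5)) := by
  have hprim : IsPreprimitive G α :=
    prim_of G b hbG hbc (by rw [hbs]; norm_num) (by rw [hbs, hα]; norm_num)
  have h2 : IsMultiplyPretransitive G α 2 :=
    jordan_trans G hprim b hbG hbc (by rw [hbs]; norm_num) (n := 0) (by rw [hbs, hα])
  have h2' : IsPretransitive G (Fin 2 ↪ α) := h2
  obtain ⟨e2⟩ : Nonempty (Fin 2 ↪ α) :=
    Function.Embedding.nonempty_of_card_le (by rw [Fintype.card_fin, hα]; norm_num)
  have i2 : (stabilizer G e2).index = Nat.card (Fin 2 ↪ α) :=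
    @index_stabilizer_of_transitive G _ _ _ e2 h2'
  rw [Nat.card_eq_fintype_card, Fintype.card_embedding_eq, hα, Fintype.card_fin] at i2
  have c2 := Subgroup.card_mul_index (stabilizer G e2)
  rw [i2] at c2
  have d2 : Nat.descFactorial 6 2 = 30 := by decide
  rw [d2] at c2
  have : Nontrivial α := Fintype.one_lt_card_iff_nontrivial.1 (by omega)
  have : IsSimpleGroup (alternatingGroup α) :=
    alternatingGroup.isSimpleGroup (by rw [Nat.card_eq_fintype_card, hα]; norm_num)
  have hA : Nat.card (alternatingGroup α) = 360 := by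
    rw [nat_card_alternatingGroup, Nat.card_eq_fintype_card, hα]; decide
  set H : Subgroup (alternatingGroup α) := G.subgroupOf (alternatingGroup α) with hH
  have eH : H ≃* G := Subgroup.subgroupOfEquivOfLe hGalt
  have hHc : Nat.card H = Nat.card G := Nat.card_congr eH.toEquiv
  have hidx : Nat.card H * H.index = 360 := by rw [Subgroup.card_mul_index, hA]
  set s := Nat.card (stabilizer G e2) with hs
  set k := H.index with hk
  rw [hHc, ← c2] at hidx
  have hsk : s * k = 12 := by nlinarith
  have hk12 : k ∣ 12 := ⟨s, by rw [← hsk]; ring⟩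
  have hkle : k ≤ 12 := Nat.le_of_dvd (by norm_num) hk12
  by_cases hk1 : k = 1
  · left
    have h3 : H = ⊤ := Subgroup.index_eq_one.1 hk1
    rw [hH, Subgroup.subgroupOf_eq_top] at h3
    exact h3
  have hHtop : H ≠ ⊤ := fun h => hk1 (Subgroup.index_eq_one.2 h)
  have hdvd : 360 ∣ k.factorial := hA ▸ card_dvd_factorial_index H hHtop
  have hkcases : k = 6 ∨ k = 12 := by
    interval_cases k
    all_goals first
      | (left; rfl)
      | (right; rfl)
      | (exfalso; revert hdvd; decide)
      | (exfalso; revert hk12; decide)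
      | (exfalso; exact hk1 rfl)
  rcases hkcases with h6 | h12
  · right
    have h7 := alt_index (α := α) (by rw [hα]; norm_num) H (by rw [← hk, h6, hα])
    rw [hα] at h7
    obtain ⟨e⟩ := h7
    exact ⟨eH.symm.trans e⟩
  · exfalso
    have hs1 : s = 1 := by rw [h12] at hsk; omega
    have hG30 : Nat.card G = 30 := by rw [← c2, hs1]
    have h8 := sharp2_primePow (G := G) (Ω := α) h2
      (by rw [Nat.card_eq_fintype_card (α := α), hα, hG30]) (by rw [Nat.card_eq_fintype_card, hα]; norm_num)
    rw [Nat.card_eq_fintype_card, hα] at h8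
    revert h8
    rw [isPrimePow_nat_iff_bounded]
    decide

end Cfsg.Agent.Lib.Helper63.Alt2P
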