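import Mathlib

set_option autoImplicit false

namespace Cfsg.Agent.Lib.Helper63.Alt2P

open Equiv Equiv.Perm MulAction

theorem red_pre {α β : Type*} {p : β → Prop} [DecidablePred p] (f : α ≃ Subtype p)
    (X : Perm β) (hX : ∀ i, ¬ p i → X i = i) : ∃ a : Perm α, a.extendDomain f = X := by
  have hinv : ∀ i, p (X i) ↔ p i := by
    intro i
    constructor
    · intro h
      by_contra hi
      rw [hX i hi] at h
      exact hi h
    · intro h
      by_contra hi
      have h1 := hX _ hi
      have h2 : X i = i := X.injective h1
      rw [h2] at hi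
      exact hi h
  refine ⟨(f.trans (X.subtypePerm hinv)).trans f.symm, ?_⟩
  ext i
  by_cases hi : p i
  · rw [extendDomain_apply_subtype _ _ hi]
    simp
  · rw [extendDomain_apply_not_subtype _ _ hi, hX i hi]

theorem red {m : ℕ} (x y : alternatingGroup (Fin m)) :
    ∃ (d : ℕ) (a b : Perm (Fin d)), d ≤ m ∧
      a.cycleType = (x : Perm (Fin m)).cycleType ∧ b.cycleType = (y : Perm (Fin m)).cycleType ∧
      (∀ i, a i ≠ i ∨ b i ≠ i) ∧
      Nonempty (Subgroup.closure ({x, y} : Set (alternatingGroup (Fin m))) ≃*
        Subgroup.closure ({a, b} : Set (Perm (Fin d)))) := by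
  set X : Perm (Fin m) := (x : Perm (Fin m)) with hXdef
  set Y : Perm (Fin m) := (y : Perm (Fin m)) with hYdef
  set s : Finset (Fin m) := X.support ∪ Y.support with hs
  let f : Fin s.card ≃ {i // i ∈ s} := s.equivFin.symm
  obtain ⟨a, ha⟩ := red_pre f X (by
    intro i hi
    rw [hs, Finset.mem_union, not_or, notMem_support] at hi
    exact hi.1)
  obtain ⟨b, hb⟩ := red_pre f Y (by
    intro i hi
    rw [hs, Finset.mem_union, not_or, notMem_support, notMem_support] at hi
    exact hi.2)
  refine ⟨s.card, a, b, ?_, ?_, ?_, ?_, ?_⟩
  · simpa using Finset.card_le_univ s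
  · rw [← ha, cycleType_extendDomain]
  · rw [← hb, cycleType_extendDomain]
  · intro i
    have hi : (f i : Fin m) ∈ X.support ∪ Y.support := (f i).2
    rw [Finset.mem_union, mem_support, mem_support] at hi
    rcases hi with hi | hi
    · left
      intro h
      apply hi
      rw [← ha, extendDomain_apply_image, h]
    · right
      intro h
      apply hi
      rw [← hb, extendDomain_apply_image, h]
  · have hφ := extendDomainHom_injective f
    have hψ : Function.Injective (alternatingGroup (Fin m)).subtype :=
      Subgroup.subtype_injective _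
    have h1 : (Subgroup.closure ({a, b} : Set (Perm (Fin s.card)))).map (extendDomainHom f)
        = Subgroup.closure ({X, Y} : Set (Perm (Fin m))) := by
      rw [MonoidHom.map_closure, Set.image_pair]
      simp only [extendDomainHom_apply, ha, hb]
    have h2 : (Subgroup.closure ({x, y} : Set (alternatingGroup (Fin m)))).map
        (alternatingGroup (Fin m)).subtype
        = Subgroup.closure ({X, Y} : Set (Perm (Fin m))) := by
      rw [MonoidHom.map_closure, Set.image_pair]
      rfl
    exact ⟨((Subgroup.equivMapOfInjective _ _ hψ).trans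
      (MulEquiv.subgroupCongr (h2.trans h1.symm))).trans
      (Subgroup.equivMapOfInjective _ _ hφ).symm⟩

end Cfsg.Agent.Lib.Helper63.Alt2P
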