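import Mathlib

set_option autoImplicit false

/-! Ladder ALT2P (S4150), rung TR1 (helper98). -/

namespace Cfsg.Agent.Lib.Helper63.Alt2P

open Equiv Equiv.Perm MulAction

theorem tr1 {α : Type*} [Fintype α] [DecidableEq α] (a b : Perm α) (ha : a.IsCycle)
    (hcov : ∀ i, a i ≠ i ∨ b i ≠ i)
    (hlt : Fintype.card α < a.support.card + b.support.card) :
    ∀ i, ∃ k : ℕ, (a ^ k) i ∈ b.support := by
  obtain ⟨j, hja, hjb⟩ : ∃ j, j ∈ a.support ∧ j ∈ b.support := by
    rw [← Finset.not_disjoint_iff]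
    intro hd
    have h1 := Finset.card_union_of_disjoint hd
    have h2 := Finset.card_le_univ (a.support ∪ b.support)
    omega
  intro i
  by_cases hbi : b i = i
  · have hai : a i ≠ i := (hcov i).resolve_right (not_not.mpr hbi)
    obtain ⟨k, hk⟩ := ha.exists_pow_eq hai (mem_support.mp hja)
    exact ⟨k, hk ▸ hjb⟩
  · exact ⟨0, by simpa using hbi⟩

end Cfsg.Agent.Lib.Helper63.Alt2P
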