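import Mathlib

set_option autoImplicit false

/-! Ladder ALT2P (S4150), rung TR2 (helper98). -/

namespace Cfsg.Agent.Lib.Helper63.Alt2P

open Equiv Equiv.Perm MulAction

theorem tr2 {α : Type*} [Fintype α] [DecidableEq α] {p : ℕ} (hp : p.Prime) (a b : Perm α)
    (ha : a.cycleType = {p, p}) (hα : Fintype.card α = 2 * p) (hb : p < b.support.card) :
    ∀ i, ∃ k : ℕ, (a ^ k) i ∈ b.support := by
  have hsupp : a.support.card = 2 * p := by
    rw [← sum_cycleType, ha]
    simp [two_mul]
  have huniv : a.support = Finset.univ := by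
    apply Finset.eq_univ_of_card
    rw [hsupp, hα]
  intro i
  have hi : i ∈ a.support := huniv ▸ Finset.mem_univ i
  have hc : a.cycleOf i ∈ a.cycleFactorsFinset := cycleOf_mem_cycleFactorsFinset_iff.mpr hi
  have hcard : (a.cycleOf i).support.card = p := by
    have h1 : (a.cycleOf i).support.card ∈ a.cycleType := by
      rw [cycleType_def]
      exact Multiset.mem_map_of_mem (Finset.card ∘ support) hc
    rw [ha] at h1
    simpa using h1
  obtain ⟨j, hjc, hjb⟩ : ∃ j, j ∈ (a.cycleOf i).support ∧ j ∈ b.support := by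
    rw [← Finset.not_disjoint_iff]
    intro hd
    have h1 := Finset.card_union_of_disjoint hd
    have h2 := Finset.card_le_univ ((a.cycleOf i).support ∪ b.support)
    omega
  obtain ⟨hsc, -⟩ := mem_support_cycleOf_iff.mp hjc
  obtain ⟨k, -, hk⟩ := hsc.exists_pow_eq'
  exact ⟨k, hk ▸ hjb⟩

end Cfsg.Agent.Lib.Helper63.Alt2P
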