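import Mathlib

set_option autoImplicit false

/-! Ladder ALT2P (S4150), rung TRANS (helper98). -/

namespace Cfsg.Agent.Lib.Helper63.Alt2P

open Equiv Equiv.Perm MulAction

theorem trans_of {α : Type*} [Fintype α] [DecidableEq α] (a b : Perm α) (hb : b.IsCycle)
    (h : ∀ i, ∃ k : ℕ, (a ^ k) i ∈ b.support) :
    IsPretransitive (Subgroup.closure ({a, b} : Set (Perm α))) α := by
  refine ⟨fun x y => ?_⟩
  obtain ⟨k, hk⟩ := h x
  obtain ⟨l, hl⟩ := h y
  obtain ⟨i, hi⟩ := hb.exists_zpow_eq (mem_support.mp hk) (mem_support.mp hl)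
  have ha : a ∈ Subgroup.closure ({a, b} : Set (Perm α)) := Subgroup.subset_closure (by simp)
  have hb' : b ∈ Subgroup.closure ({a, b} : Set (Perm α)) := Subgroup.subset_closure (by simp)
  refine ⟨⟨(a ^ l)⁻¹ * b ^ i * a ^ k, Subgroup.mul_mem _ (Subgroup.mul_mem _
    (Subgroup.inv_mem _ (Subgroup.pow_mem _ ha l)) (Subgroup.zpow_mem _ hb' i))
    (Subgroup.pow_mem _ ha k)⟩, ?_⟩
  show ((a ^ l)⁻¹ * b ^ i * a ^ k) x = y
  rw [Perm.mul_apply, Perm.mul_apply, hi]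
  simp

end Cfsg.Agent.Lib.Helper63.Alt2P
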