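import Mathlib
import Cfsg.Agent.Lib.Helper63.Alt2P.Deg13
import Cfsg.Agent.Lib.Helper63.Alt2P.RED
import Cfsg.Agent.Lib.Helper63.Alt2P.CYC
import Cfsg.Agent.Lib.Helper63.Alt2P.TRANS
import Cfsg.Agent.Lib.Helper63.Alt2P.TR1
import Cfsg.Agent.Lib.Helper63.Alt2P.TR2
import Cfsg.Agent.Lib.Helper63.Alt2P.PRIM
import Cfsg.Agent.Lib.Helper63.Alt2P.DEG7
import Cfsg.Agent.Lib.Helper63.Alt2P.M6
import Cfsg.Agent.Lib.Helper63.Alt2P.BC
import Cfsg.Agent.Lib.Helper63.Alt2P.BD

set_option autoImplicit false

namespace Cfsg.Agent.Lib.Helper63.Alt2P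

open Equiv Equiv.Perm MulAction

theorem mem_alt_of_cycleType {α β : Type*} [Fintype α] [DecidableEq α] [Fintype β] [DecidableEq β]
    (a : Perm α) (x : Perm β) (h : a.cycleType = x.cycleType) (hx : x ∈ alternatingGroup β) :
    a ∈ alternatingGroup α := by
  rw [mem_alternatingGroup, sign_of_cycleType] at *
  rw [h]; exact hx

theorem key (m p q : ℕ) (hp : p.Prime) (hq : q.Prime) (hmp : m ≤ 2 * p) (hpq : p < q) (hqm : q ≤ m)
    (h3 : 3 ≤ p)
    (hgood : p + 4 ≤ q ∨ (p = 3 ∧ q = 5) ∨ (p = 5 ∧ q = 7) ∨ (p = 11 ∧ q = 13))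
    (hgood2 : m = 2 * p → q + 3 ≤ m ∨ m = 6)
    (x y : alternatingGroup (Fin m)) (hx : orderOf x = p) (hy : orderOf y = q) :
    ∃ d : ℕ, 5 ≤ d ∧ Nonempty (Subgroup.closure ({x, y} : Set (alternatingGroup (Fin m))) ≃*
      alternatingGroup (Fin d)) := by
  obtain ⟨d, a, b, hdm, hact, hbct, hcov, ⟨e⟩⟩ := red x y
  have hxo : orderOf (x : Perm (Fin m)) = p := by rw [Subgroup.orderOf_coe, hx]
  have hyo : orderOf (y : Perm (Fin m)) = q := by rw [Subgroup.orderOf_coe, hy]
  have hyct : (y : Perm (Fin m)).cycleType = {q} := by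
    rcases cyc hq _ hyo (by rw [Fintype.card_fin]; omega) with h | ⟨_, h⟩
    · exact h
    · rw [Fintype.card_fin] at h; omega
  have hbct' : b.cycleType = {q} := hbct.trans hyct
  have hbc : b.IsCycle := card_cycleType_eq_one.1 (by rw [hbct']; rfl)
  have hbs : b.support.card = q := by rw [← sum_cycleType, hbct']; rfl
  have haA : a ∈ alternatingGroup (Fin d) := mem_alt_of_cycleType a _ hact x.2
  have hbA : b ∈ alternatingGroup (Fin d) := mem_alt_of_cycleType b _ hbct y.2
  have hGalt : Subgroup.closure ({a, b} : Set (Perm (Fin d))) ≤ alternatingGroup (Fin d) := by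
    rw [Subgroup.closure_le]
    rintro z (rfl | rfl)
    · exact haA
    · exact hbA
  have haG : a ∈ Subgroup.closure ({a, b} : Set (Perm (Fin d))) :=
    Subgroup.subset_closure (by simp)
  have hbG : b ∈ Subgroup.closure ({a, b} : Set (Perm (Fin d))) :=
    Subgroup.subset_closure (by simp)
  have hqd : q ≤ d := by
    rw [← hbs]
    exact (Finset.card_le_univ _).trans (by rw [Fintype.card_fin])
  have hq5 : 5 ≤ q := by
    rcases Nat.lt_or_ge q 5 with h | h
    · have : q = 4 := by omega
      subst this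
      exact absurd hq (by norm_num)
    · exact h
  suffices h : alternatingGroup (Fin d) ≤ Subgroup.closure ({a, b} : Set (Perm (Fin d))) ∨
      Nonempty (Subgroup.closure ({a, b} : Set (Perm (Fin d))) ≃* alternatingGroup (Fin 5)) by
    rcases h with h | hf
    · exact ⟨d, by omega, ⟨e.trans (MulEquiv.subgroupCongr (le_antisymm hGalt h))⟩⟩
    · obtain ⟨f⟩ := hf
      exact ⟨5, le_rfl, ⟨e.trans f⟩⟩
  rcases cyc hp _ hxo (by rw [Fintype.card_fin]; exact hmp) with h | ⟨h, hm2⟩
  · have hact' : a.cycleType = {p} := hact.trans h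
    have hac : a.IsCycle := card_cycleType_eq_one.1 (by rw [hact']; rfl)
    have has : a.support.card = p := by rw [← sum_cycleType, hact']; rfl
    have htr : IsPretransitive (Subgroup.closure ({a, b} : Set (Perm (Fin d)))) (Fin d) :=
      trans_of a b hbc (tr1 a b hac hcov (by rw [Fintype.card_fin, has, hbs]; omega))
    have hprim : IsPreprimitive (Subgroup.closure ({a, b} : Set (Perm (Fin d)))) (Fin d) :=
      prim_of _ b hbG hbc (by rw [hbs]; exact hq) (by rw [Fintype.card_fin, hbs]; omega)
    left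
    by_cases hpd : p + 3 ≤ d
    · exact Cfsg.Agent.S0713.result _ hprim hp (by rw [Fintype.card_fin]; omega)
        (by rw [Fintype.card_fin]; exact hpd) hac has haG
    · rcases hgood with hg | ⟨rfl, rfl⟩ | ⟨rfl, rfl⟩ | ⟨rfl, rfl⟩
      · omega
      · exact alternatingGroup_le_of_isPreprimitive_of_isThreeCycle_mem hprim
          (card_support_eq_three_iff.1 has) haG
      · have hd7 : d = 7 := by omega
        subst hd7
        exact deg7 (by simp) _ a haG (by rw [hac.orderOf, has])
      · have hd13 : d = 13 := by omega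
        subst hd13
        exact deg13 (by simp) _ hGalt a haG hac has
  · rw [Fintype.card_fin] at hm2
    have hact' : a.cycleType = {p, p} := hact.trans h
    have has : a.support.card = 2 * p := by
      rw [← sum_cycleType, hact']
      simp [two_mul]
    have hd : d = 2 * p := by
      apply le_antisymm (by omega)
      rw [← has]
      exact (Finset.card_le_univ _).trans (by rw [Fintype.card_fin])
    have htr : IsPretransitive (Subgroup.closure ({a, b} : Set (Perm (Fin d)))) (Fin d) :=
      trans_of a b hbc (tr2 hp a b hact' (by rw [Fintype.card_fin, hd]) (by rw [hbs]; exact hpq))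
    have hprim : IsPreprimitive (Subgroup.closure ({a, b} : Set (Perm (Fin d)))) (Fin d) :=
      prim_of _ b hbG hbc (by rw [hbs]; exact hq) (by rw [Fintype.card_fin, hbs]; omega)
    rcases hgood2 hm2 with h | h
    · left
      exact Cfsg.Agent.S0713.result _ hprim hq (by rw [Fintype.card_fin]; omega)
        (by rw [Fintype.card_fin]; omega) hbc hbs hbG
    · have hd6 : d = 6 := by omega
      have hq5' : q = 5 := by
        rcases Nat.lt_or_ge q 6 with h' | h'
        · omega
        · have : q = 6 := by omega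
          subst this
          exact absurd hq (by norm_num)
      subst hd6
      exact m6 (by simp) _ hGalt b hbG hbc (by rw [hbs, hq5'])

theorem choose_primes (m : ℕ) (hm : 5 ≤ m) :
    ∃ p q : ℕ, p.Prime ∧ q.Prime ∧ m ≤ 2 * p ∧ p < q ∧ q ≤ m ∧ 3 ≤ p ∧
      (p + 4 ≤ q ∨ (p = 3 ∧ q = 5) ∨ (p = 5 ∧ q = 7) ∨ (p = 11 ∧ q = 13)) ∧
      (m = 2 * p → q + 3 ≤ m ∨ m = 6) := by
  rcases Nat.lt_or_ge m 7 with h | h
  · exact ⟨3, 5, by norm_num, by norm_num, by omega, by omega, by omega, by omega, by omega,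
      by omega⟩
  rcases Nat.lt_or_ge m 11 with h | h
  · exact ⟨5, 7, by norm_num, by norm_num, by omega, by omega, by omega, by omega, by omega,
      by omega⟩
  rcases Nat.lt_or_ge m 15 with h | h
  · exact ⟨7, 11, by norm_num, by norm_num, by omega, by omega, by omega, by omega, by omega,
      by omega⟩
  rcases Nat.lt_or_ge m 17 with h | h
  · exact ⟨11, 13, by norm_num, by norm_num, by omega, by omega, by omega, by omega, by omega,
      by omega⟩
  rcases Nat.lt_or_ge m 18 with h | h
  · exact ⟨11, 17, by norm_num, by norm_num, by omega, by omega, by omega, by omega, by omega,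
      by omega⟩
  have hex : ∃ p q : ℕ, p.Prime ∧ q.Prime ∧ m / 2 < p ∧ p + 4 ≤ q ∧ q ≤ 2 * (m / 2) := by
    rcases Nat.lt_or_ge (m / 2) 2048 with h' | h'
    · exact small_pairs (m / 2) (by omega) h'
    · exact large_pairs (m / 2) h'
  obtain ⟨p, q, hp, hq, h1, h2, h3⟩ := hex
  exact ⟨p, q, hp, hq, by omega, by omega, by omega, by omega, Or.inl h2, by omega⟩

end Cfsg.Agent.Lib.Helper63.Alt2P
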